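import Cfsg.Agent.H168.ExcAdj
import Cfsg.Agent.H493.PGTwist
import Cfsg.Agent.BpExc.RowsUntw
import Cfsg.Agent.H46.Gen.A2Hom

/-!
# Adjacency with the characteristic through a torus, untwisted groups (helper2)

* `pow_range` : `y ^ d ∈ emb (D.group F)` for every fixed point `y` of the Frobenius automorphism;
* `rel_p_of_eig` : `w` fixes a root on which the functional vanishes;
* `rel_p_of_orb` : `w` permutes three commuting roots on which the functional vanishes.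
-/

set_option autoImplicit false
set_option linter.unusedSectionVars false

namespace Cfsg.Agent.R2.Spec.EE.CertBase

open CoxeterSystem Cfsg Cfsg.Lie Cfsg.Lie.ChevalleyDatum
open Cfsg.Agent Cfsg.Agent.ChevalleyStructure Cfsg.Agent.ChevalleyStructure.Elts
  Cfsg.Agent.ChevalleyStructure.CoxeterGeom
  Cfsg.Agent.ChevalleyStructure.CoxeterGeomTypes Cfsg.Agent.ChevalleyStructure.NPerm
open Cfsg.Agent.Tits.Roots Cfsg.Agent.Tits.Core Cfsg.Agent.Nodes Cfsg.Agent.Nodes.Reps Cfsg.Agent.Nodes.BNOf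
  Cfsg.Agent.Nodes.RGDChev Cfsg.Agent.Nodes.Bruhat Cfsg.Agent.Nodes.SubComb Cfsg.Agent.Nodes.Coroot
open Cfsg.Agent.KFacts.RgdField Cfsg.Agent.KFacts.RgdChevCoord Cfsg.Agent.BpExc.TorCent Cfsg.Agent.BpExc.TorChev
open Cfsg.Agent.GpExc.Field Cfsg.Agent.BpExc.Tow Cfsg.Agent.BpExc.TowChev Cfsg.Agent.BpExc.Fr
  Cfsg.Agent.BpExc.LangFr Cfsg.Agent.LangThm Cfsg.Agent.BpExc Cfsg.Agent.H129.TorusChar Cfsg.Agent.H129.TorusCent
  Cfsg.Agent.H129.TorusTw Cfsg.Agent.H129.TorusMain Cfsg.Agent.H493 Cfsg.Agent.H493.PGTorus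
  Cfsg.Agent.H493.PGTwist Cfsg.Agent.H129.TorusUntw

universe u

section

variable {D : ChevalleyDatum} {l : ℕ} {M : CoxeterMatrix (Fin l)} (hp : IsType D l M) {k : Type u} [Field k]
  [IsAlgClosed k] {W : Type*} [Group W] (cs : CoxeterSystem M W) {p e : ℕ} [Fact p.Prime] [CharP k p]

section Fix

variable {F : Type u} [Field F] [Fintype F] (f : F →+* k)

include cs in
/-- A fixed torus element normalises the image. -/
theorem torus_norm (hq : Fintype.card F = p ^ e) {t : ↥(D.group k)} (ht : t ∈ TT D k) (hf : phi D k p e t = t) :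
    t ∈ Subgroup.normalizer ((emb hp.inList f).range : Set ↥(D.group k)) := by
  have h1 : ∀ r : ℕ, ∃ b : F, f b = cX hp t (vec D l r) := fun r => fix_cX hp cs f hq ht hf _
  choose b hb using h1
  refine FamExt.mem_normalizer hp f (c := b) (fun r hr s => ?_) fun r hr h0 => ?_
  · have h3 := (act hp hr ht).2 (f s)
    rw [← cX_root hp cs ht ((isRoot_iff hp cs _).2 ⟨r, hr, rfl⟩)] at h3
    rw [h3, ← hb, map_mul]
  · have h1 := hb r
    rw [h0, map_zero] at h1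
    exact (isMC_cX hp ht).ne_zero _ h1.symm

include cs in
/-- **`y ^ d` in the image.** -/
theorem pow_range (hq : Fintype.card F = p ^ e) {d : ℕ} {B : Fin l → Fin l → ℤ}
    (hB : InvC D l d B) (hd : d ≠ 0) {y : ↥(D.group k)} (hy : phi D k p e y = y) :
    y ^ d ∈ (emb hp.inList f).range := by
  obtain ⟨x, t, ht, rfl⟩ := fix_split hp f hq hy
  rw [map_mul, phi_emb hp f hq] at hy
  have hf : phi D k p e t = t := mul_left_cancel hy
  have hn := torus_norm hp cs f hq ht hf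
  have key : ∀ n : ℕ, ∃ z ∈ (emb hp.inList f).range, (emb hp.inList f x * t) ^ n = z * t ^ n := by
    intro n
    induction n with
    | zero => exact ⟨1, one_mem _, by simp⟩
    | succ n ih =>
      obtain ⟨z, hz, h⟩ := ih
      refine ⟨z * (t ^ n * emb hp.inList f x * (t ^ n)⁻¹), mul_mem hz ?_, ?_⟩
      · exact (Subgroup.mem_normalizer_iff.1 (pow_mem hn n) _).1 ⟨x, rfl⟩
      · rw [pow_succ, h, pow_succ]
        group
  obtain ⟨z, hz, h⟩ := key d
  rw [h]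
  exact mul_mem hz (fix_pow hp cs f hq hB hd ht hf)

end Fix

end

section Main

variable {D : ChevalleyDatum} {l : ℕ} {M : CoxeterMatrix (Fin l)} (hp : IsType D l M) {W : Type*} [Group W] [Finite W]
  (cs : CoxeterSystem M W)

/-- a prime power of a fixed element, order prime to the exponent -/
theorem rel_desc {G0 Y : Type*} [Group G0] [Finite G0] [Group Y] {e0 : G0 →* Y} (he0 : Function.Injective e0)
    {y y' : Y} {m n : ℕ} (hy : y ^ m ∈ e0.range) (hy' : y' ^ n ∈ e0.range) (hc : y * y' = y' * y) {r s : ℕ}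
    (hr : r.Prime) (hs : s.Prime) (hrs : r ≠ s) (hyr : orderOf y = r) (hys : orderOf y' = s)
    (hrm : ¬ r ∣ m) (hsn : ¬ s ∣ n) : PG.Rel G0 r s := by
  obtain ⟨x, hx⟩ := hy
  obtain ⟨x', hx'⟩ := hy'
  have key : ∀ {y : Y} {x : G0} {r d : ℕ}, r.Prime → orderOf y = r → ¬ r ∣ d → e0 x = y ^ d → orderOf x = r := by
    intro y x r d hr hyr hrd hx
    rw [← orderOf_injective e0 he0 x, hx, Nat.Coprime.orderOf_pow, hyr]
    rw [hyr]
    exact (Nat.Prime.coprime_iff_not_dvd hr).2 hrd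
  refine PG.Rel.of_commute hr hs hrs (x := x) (y := x') ?_ (by rw [key hr hyr hrm hx]) (by rw [key hs hys hsn hx'])
  apply he0
  rw [map_mul, map_mul, hx, hx']
  exact ((show Commute y y' from hc).pow_pow m n).eq

include cs in
/-- the exponent for the characteristic -/
theorem exists_exp {F : Type u} [Field F] [Fintype F] {k : Type u} [Field k] [IsAlgClosed k] (f : F →+* k) {p e : ℕ}
    [Fact p.Prime] [CharP k p] (hq : Fintype.card F = p ^ e) {d : ℕ} {B : Fin l → Fin l → ℤ}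
    (hB : InvC D l d B) (hd : d ≠ 0) (hF : p ∣ d → ∀ a : F, ∃ b : F, b ^ d = a) :
    ∃ n : ℕ, ¬ p ∣ n ∧ ∀ y : ↥(D.group k), phi D k p e y = y → y ^ n ∈ (emb hp.inList f).range := by
  by_cases h : p ∣ d
  · refine ⟨1, fun h1 => (Fact.out : p.Prime).one_lt.ne' (Nat.dvd_one.1 h1), fun y hy => ?_⟩
    rw [pow_one]
    exact fix_range hp cs f hq hB hd (hF h) hy
  · exact ⟨d, h, fun y hy => pow_range hp cs f hq hB hd hy⟩

/-- **Adjacency with the characteristic.** -/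
theorem rel_p_of_eig {d : ℕ} {B : Fin l → Fin l → ℤ} (hB : InvC D l d B) (hd : d ≠ 0) {F : Type u} [Field F] [Finite F]
    {w : W} {Th : Fin l → Fin l → ℤ} (hw : ∀ j, rep cs hp.isCartan w (sr j) = Th j)
    {f : ℕ} {c : Fin (f + 1) → ℤ} {V : Fin (f + 1) → Fin l → ℤ} {U : Fin l → ℤ}
    (h : EigOK (fun i j => Th j i) c V U) (hc : c 0 = 1 ∨ c 0 = -1) {r₀ : ℕ} (hr₀ : r₀ < D.nroots)
    (hfix : ∀ m, ∑ j, vec D l r₀ j * Th j m = vec D l r₀ m) (hV : ∀ i, ∑ m, vec D l r₀ m * V i m = 0)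
    {r s : ℕ} (hr : r.Prime) (hs : s.Prime) (hrd : ¬ r ∣ d) (hF : s ∣ d → ∀ a : F, ∃ b : F, b ^ d = a)
    (h1 : (r : ℤ) ∣ pv c (Nat.card F)) (h2 : s ∣ Nat.card F) : PG.Rel ↥(D.group F) r s := by
  have : Fintype F := Fintype.ofFinite F
  rw [Nat.card_eq_fintype_card] at h1 h2
  obtain ⟨p, e, hpF, hpc, hpk, he, hq, hk⟩ := exists_closure (F := F) rfl
  have hsp : s = p := (Nat.prime_dvd_prime_iff_eq hs hpF.out).1 (hs.dvd_of_dvd_pow (hq ▸ h2))
  subst hsp
  rw [hq] at h1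
  have hrs := ne_char hc hs he h1
  obtain ⟨n, hn, hrange⟩ := exists_exp hp cs (algebraMap F (AlgebraicClosure F)) hq hB hd hF
  have hroot := (isRoot_iff hp cs (vec D l r₀)).2 ⟨r₀, hr₀, rfl⟩
  obtain ⟨m, z, hz, hσ', F'⟩ := exists_z hp cs hk he (isFrob_phi (p := s) (e := e))
    (fr_phi hp cs (k := AlgebraicClosure F)) w
  obtain ⟨t, ht, h3, h4, h5⟩ := exists_t hp cs hσ' F' hB hd hr hrs (hL_of_eig hp cs hw h h1)
    (x₀ := U) (by
      rw [lam_unit h]
      intro h7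
      have h8 := Int.natCast_dvd_natCast.mp (by simpa using h7 : (r : ℤ) ∣ ((1 : ℕ) : ℤ))
      exact hr.one_lt.ne' (Nat.dvd_one.mp h8))
  have hwa : (AddEquiv.refl (Fin l → ℤ)).trans (repAut cs hp.isCartan w) (vec D l r₀) = vec D l r₀ := by
    funext i
    rw [← hfix i]
    exact rep_apply_eq hp cs hw _ _
  obtain ⟨x, hx1, hx2, hx3⟩ := exists_x hp cs hk he hσ' F' hroot hwa
  have hcomm : t * x = x * t := hx3 t ht (h5 _ (by rw [lam_zero hV]; exact dvd_zero _))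
  have ho : ∀ y : ↥(D.group (AlgebraicClosure F)), orderOf (z * y * z⁻¹) = orderOf y := fun y =>
    orderOf_injective (MulAut.conj z).toMonoidHom (MulAut.conj z).injective y
  refine rel_desc (emb_injective hp.inList (algebraMap F (AlgebraicClosure F))) (y := z * t * z⁻¹)
    (y' := z * x * z⁻¹) (pow_range hp cs _ hq hB hd (fix_conj hz h3)) (hrange _ (fix_conj hz hx1)) ?_ hr hs hrs
    ((ho t).trans h4) ((ho x).trans hx2) hrd hn
  calc z * t * z⁻¹ * (z * x * z⁻¹) = z * (t * x) * z⁻¹ := by group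
    _ = z * (x * t) * z⁻¹ := by rw [hcomm]
    _ = _ := by group

/-- **Unipotent elements, three roots.** -/
theorem exists_x3 {k : Type u} [Field k] [IsAlgClosed k] {p e : ℕ} [Fact p.Prime] [CharP k p]
    {σ : MulAut ↥(D.group k)} {g : (Fin l → ℤ) ≃+ (Fin l → ℤ)} (he : 0 < e) (hσ : IsFrob p e σ)
    (F : Fr cs hp.isCartan (TT D k) (XX D l k) σ g) {d : ℕ} {B : Fin l → Fin l → ℤ} (hB : InvC D l d B) (hd : d ≠ 0)
    {r₀ r₁ r₂ : ℕ} (h0 : r₀ < D.nroots) (h1 : r₁ < D.nroots) (h2 : r₂ < D.nroots)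
    (g0 : g (vec D l r₀) = vec D l r₁) (g1 : g (vec D l r₁) = vec D l r₂) (g2 : g (vec D l r₂) = vec D l r₀)
    (c01 : r₁ ≠ r₀ ∧ r₁ ≠ D.neg r₀ ∧ D.commTerms r₀ r₁ = []) (c02 : r₂ ≠ r₀ ∧ r₂ ≠ D.neg r₀ ∧ D.commTerms r₀ r₂ = [])
    (c12 : r₂ ≠ r₁ ∧ r₂ ≠ D.neg r₁ ∧ D.commTerms r₁ r₂ = []) {L : Fin l → ℤ} (L0 : ∑ m, vec D l r₀ m * L m = 1)
    (L1 : ∑ m, vec D l r₁ m * L m = 0) (L2 : ∑ m, vec D l r₂ m * L m = 0) :
    ∃ x : ↥(D.group k), σ x = x ∧ orderOf x = p ∧ ∀ t ∈ TT D k, cX hp t (vec D l r₀) = 1 →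
      cX hp t (vec D l r₁) = 1 → cX hp t (vec D l r₂) = 1 → t * x = x * t := by
  have hroot : ∀ {r : ℕ}, r < D.nroots → IsRoot cs hp.isCartan (vec D l r) := fun hr =>
    (isRoot_iff hp cs _).2 ⟨_, hr, rfl⟩
  obtain ⟨y, hy, hy1, hyf⟩ := Cfsg.Agent.BpExc.HX.exists_fixed hp cs he hσ F (hroot h0)
  obtain ⟨a, rfl⟩ := (Cfsg.Agent.BpExc.HX.mem_XX_xc hp h0).1 hy
  obtain ⟨a1, e1⟩ := (Cfsg.Agent.BpExc.HX.mem_XX_xc hp h1).1 (g0 ▸ (F.map _ (hroot h0) _).2 hy)
  obtain ⟨a2, e2⟩ := (Cfsg.Agent.BpExc.HX.mem_XX_xc hp h2).1 (g1 ▸ (F.map _ (hroot h1) _).2 ((Cfsg.Agent.BpExc.HX.mem_XX_xc hp h1).2 ⟨a1, rfl⟩))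
  have e3 : σ (xc hp (vec D l r₂) a2) = xc hp (vec D l r₀) a := by
    have := hyf 3 (by
      show g (g (g (vec D l r₀))) = _
      rw [g0, g1, g2])
    rw [← this]
    show _ = σ (σ (σ _))
    rw [e1, e2]
  have comm : ∀ {r s : ℕ} (hr : r < D.nroots) (hs : s < D.nroots) (hc : s ≠ r ∧ s ≠ D.neg r ∧ D.commTerms r s = [])
      (t u : k), xc hp (vec D l s) u * xc hp (vec D l r) t = xc hp (vec D l r) t * xc hp (vec D l s) u := by
    intro r s hr hs hc t u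
    apply Subtype.ext
    rw [Subgroup.coe_mul, Subgroup.coe_mul, coe_xc hp hr, coe_xc hp hs,
      Cfsg.Agent.H46.Gen.comm_word hp hr hs hc.1 hc.2.1 t u, Cfsg.Agent.H46.Gen.word_nil' hp hc.2.2 t u, mul_one]
  have q01 := comm h0 h1 c01 a a1
  have q02 := comm h0 h2 c02 a a2
  have q12 := comm h1 h2 c12 a1 a2
  have hpow : ∀ (r : ℕ) (b : k), xc hp (vec D l r) b ^ p = 1 := by
    intro r b
    have : ∀ n : ℕ, xc hp (vec D l r) b ^ n = xc hp (vec D l r) (n * b) := by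
      intro n
      induction n with
      | zero => rw [pow_zero, Nat.cast_zero, zero_mul, Cfsg.Agent.H46.Gen.xc_zero]
      | succ n ih => rw [pow_succ, ih, Nat.cast_succ, add_mul, one_mul, Cfsg.Agent.H46.Gen.xc_add]
    rw [this, CharP.cast_eq_zero, zero_mul, Cfsg.Agent.H46.Gen.xc_zero]
  refine ⟨xc hp (vec D l r₀) a * xc hp (vec D l r₁) a1 * xc hp (vec D l r₂) a2, ?_, ?_, fun t ht t0 t1 t2 => ?_⟩
  · rw [map_mul, map_mul, e1, e2, e3, q12.symm, mul_assoc, q01, ← mul_assoc, q02, mul_assoc, q12, ← mul_assoc]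
  · refine orderOf_eq_prime ?_ ?_
    · have w1 : Commute (xc hp (vec D l r₀) a * xc hp (vec D l r₁) a1) (xc hp (vec D l r₂) a2) :=
        Commute.mul_left q02.symm q12.symm
      have w2 : Commute (xc hp (vec D l r₀) a) (xc hp (vec D l r₁) a1) := q01.symm
      rw [w1.mul_pow, w2.mul_pow, hpow, hpow, hpow, mul_one, mul_one]
    · intro hx
      have hinf : ∃ b : k, b ≠ 0 ∧ b ≠ 1 := by
        have : Infinite k := IsAlgClosed.instInfinite
        classical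
        obtain ⟨b, hb⟩ := Infinite.exists_notMem_finset ({0, 1} : Finset k)
        exact ⟨b, fun h => hb (by simp [h]), fun h => hb (by simp [h])⟩
      obtain ⟨b, hb0, hb1⟩ := hinf
      have hMC : IsMC (fun x : Fin l → ℤ => b ^ (∑ m, x m * L m)) :=
        ⟨by simp, fun x y => by
          rw [← zpow_add₀ hb0, ← Finset.sum_add_distrib]
          congr 1
          exact Finset.sum_congr rfl fun m _ => by rw [Pi.add_apply, add_mul]⟩
      obtain ⟨t, ht, hcX⟩ := exists_cX hp hB hd hMC fun i =>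
        IsAlgClosed.exists_pow_nat_eq _ (Nat.pos_of_ne_zero hd)
      have act' : ∀ {r : ℕ} (hr : r < D.nroots) (s : k), t * xc hp (vec D l r) s * t⁻¹ =
          xc hp (vec D l r) (cX hp t (vec D l r) * s) := by
        intro r hr s
        rw [cX_root hp cs ht (hroot hr)]
        exact (act hp hr ht).2 s
      have k0 := act' h0 a
      have k1 := act' h1 a1
      have k2 := act' h2 a2
      rw [hcX, L0, zpow_one] at k0
      rw [hcX, L1, zpow_zero, one_mul] at k1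
      rw [hcX, L2, zpow_zero, one_mul] at k2
      have k3 : xc hp (vec D l r₀) (b * a) * xc hp (vec D l r₁) a1 * xc hp (vec D l r₂) a2 = 1 := by
        rw [← k0, ← k1, ← k2]
        calc _ = t * (xc hp (vec D l r₀) a * xc hp (vec D l r₁) a1 * xc hp (vec D l r₂) a2) * t⁻¹ := by group
          _ = 1 := by rw [hx]; group
      have k4 := mul_right_cancel (mul_right_cancel (k3.trans hx.symm))
      have k5 := xc_inj hp h0 k4
      have ha : a ≠ 0 := by
        rintro rfl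
        exact hy1 (Cfsg.Agent.H46.Gen.xc_zero hp _)
      exact hb1 (mul_right_cancel₀ ha (by rw [k5, one_mul]))
  · have act' : ∀ {r : ℕ} (hr : r < D.nroots) (s : k), cX hp t (vec D l r) = 1 →
        Commute t (xc hp (vec D l r) s) := by
      intro r hr s h1
      have h3 := (act hp hr ht).2 s
      rw [← cX_root hp cs ht (hroot hr), h1, one_mul] at h3
      show _ = _
      calc t * xc hp (vec D l r) s = t * xc hp (vec D l r) s * t⁻¹ * t := by group
        _ = _ := by rw [h3]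
    exact ((act' h0 a t0).mul_right (act' h1 a1 t1)).mul_right (act' h2 a2 t2)

/-- **Adjacency with the characteristic, three roots.** -/
theorem rel_p_of_orb {d : ℕ} {B : Fin l → Fin l → ℤ} (hB : InvC D l d B) (hd : d ≠ 0) {F : Type u} [Field F] [Finite F]
    {w : W} {Th : Fin l → Fin l → ℤ} (hw : ∀ j, rep cs hp.isCartan w (sr j) = Th j)
    {f : ℕ} {c : Fin (f + 1) → ℤ} {V : Fin (f + 1) → Fin l → ℤ} {U : Fin l → ℤ}
    (h : EigOK (fun i j => Th j i) c V U) (hc : c 0 = 1 ∨ c 0 = -1)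
    {r₀ r₁ r₂ : ℕ} (h0 : r₀ < D.nroots) (h1 : r₁ < D.nroots) (h2 : r₂ < D.nroots)
    (g0 : ∀ m, ∑ j, vec D l r₀ j * Th j m = vec D l r₁ m) (g1 : ∀ m, ∑ j, vec D l r₁ j * Th j m = vec D l r₂ m)
    (g2 : ∀ m, ∑ j, vec D l r₂ j * Th j m = vec D l r₀ m)
    (c01 : r₁ ≠ r₀ ∧ r₁ ≠ D.neg r₀ ∧ D.commTerms r₀ r₁ = []) (c02 : r₂ ≠ r₀ ∧ r₂ ≠ D.neg r₀ ∧ D.commTerms r₀ r₂ = [])
    (c12 : r₂ ≠ r₁ ∧ r₂ ≠ D.neg r₁ ∧ D.commTerms r₁ r₂ = []) {L : Fin l → ℤ} (L0 : ∑ m, vec D l r₀ m * L m = 1)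
    (L1 : ∑ m, vec D l r₁ m * L m = 0) (L2 : ∑ m, vec D l r₂ m * L m = 0)
    (v0 : ∀ i, ∑ m, vec D l r₀ m * V i m = 0) (v1 : ∀ i, ∑ m, vec D l r₁ m * V i m = 0)
    (v2 : ∀ i, ∑ m, vec D l r₂ m * V i m = 0)
    {r s : ℕ} (hr : r.Prime) (hs : s.Prime) (hrd : ¬ r ∣ d) (hF : s ∣ d → ∀ a : F, ∃ b : F, b ^ d = a)
    (hr1 : (r : ℤ) ∣ pv c (Nat.card F)) (hs2 : s ∣ Nat.card F) : PG.Rel ↥(D.group F) r s := by
  have : Fintype F := Fintype.ofFinite F
  rw [Nat.card_eq_fintype_card] at hr1 hs2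
  obtain ⟨p, e, hpF, hpc, hpk, he, hq, hk⟩ := exists_closure (F := F) rfl
  have hsp : s = p := (Nat.prime_dvd_prime_iff_eq hs hpF.out).1 (hs.dvd_of_dvd_pow (hq ▸ hs2))
  subst hsp
  rw [hq] at hr1
  have hrs := ne_char hc hs he hr1
  obtain ⟨n, hn, hrange⟩ := exists_exp hp cs (algebraMap F (AlgebraicClosure F)) hq hB hd hF
  obtain ⟨m, z, hz, hσ', F'⟩ := exists_z hp cs hk he (isFrob_phi (p := s) (e := e))
    (fr_phi hp cs (k := AlgebraicClosure F)) w
  obtain ⟨t, ht, h3, h4, h5⟩ := exists_t hp cs hσ' F' hB hd hr hrs (hL_of_eig hp cs hw h hr1)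
    (x₀ := U) (by
      rw [lam_unit h]
      intro h7
      have h8 := Int.natCast_dvd_natCast.mp (by simpa using h7 : (r : ℤ) ∣ ((1 : ℕ) : ℤ))
      exact hr.one_lt.ne' (Nat.dvd_one.mp h8))
  have hwa : ∀ {a b : Fin l → ℤ}, (∀ m, ∑ j, a j * Th j m = b m) →
      (AddEquiv.refl (Fin l → ℤ)).trans (repAut cs hp.isCartan w) a = b := by
    intro a b hab
    funext i
    rw [← hab i]
    exact rep_apply_eq hp cs hw _ _
  obtain ⟨x, hx1, hx2, hx3⟩ := exists_x3 hp cs he hσ' F' hB hd h0 h1 h2 (hwa g0) (hwa g1) (hwa g2) c01 c02 c12 L0 L1 L2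
  have one : ∀ {a : Fin l → ℤ}, (∀ i, ∑ m, a m * V i m = 0) → cX hp t a = 1 := fun hV =>
    h5 _ (by rw [lam_zero hV]; exact dvd_zero _)
  have hcomm : t * x = x * t := hx3 t ht (one v0) (one v1) (one v2)
  have ho : ∀ y : ↥(D.group (AlgebraicClosure F)), orderOf (z * y * z⁻¹) = orderOf y := fun y =>
    orderOf_injective (MulAut.conj z).toMonoidHom (MulAut.conj z).injective y
  refine rel_desc (emb_injective hp.inList (algebraMap F (AlgebraicClosure F))) (y := z * t * z⁻¹)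
    (y' := z * x * z⁻¹) (pow_range hp cs _ hq hB hd (fix_conj hz h3)) (hrange _ (fix_conj hz hx1)) ?_ hr hs hrs
    ((ho t).trans h4) ((ho x).trans hx2) hrd hn
  calc z * t * z⁻¹ * (z * x * z⁻¹) = z * (t * x) * z⁻¹ := by group
    _ = z * (x * t) * z⁻¹ := by rw [hcomm]
    _ = _ := by group

end Main

end Cfsg.Agent.R2.Spec.EE.CertBase
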