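import Cfsg.Agent.H168.TwCover
import Cfsg.Agent.H493.PGE6T
import Cfsg.Agent.H493.PGD4T
import Cfsg.Agent.R2.Spec.EE.CertBase

/-!
# Adjacency with the characteristic through a twisted torus (helper2)

`rel_p_tw` : `H493.PGTwist.conn_p_of_eig` with `PG.Rel`; `relp_six` : `²E₆(q)`; `relp_tri` : `³D₄(q)`.
-/

set_option autoImplicit false
set_option linter.unusedSectionVars false

namespace Cfsg.Agent.R2.Spec.EE.CertBaseT

open CoxeterSystem Cfsg Cfsg.Lie Cfsg.Lie.ChevalleyDatum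
open Cfsg.Agent Cfsg.Agent.ChevalleyStructure Cfsg.Agent.ChevalleyStructure.Elts
  Cfsg.Agent.ChevalleyStructure.CoxeterGeom
  Cfsg.Agent.ChevalleyStructure.CoxeterGeomTypes Cfsg.Agent.ChevalleyStructure.NPerm
open Cfsg.Agent.Tits.Roots Cfsg.Agent.Tits.Core Cfsg.Agent.Nodes Cfsg.Agent.Nodes.Reps Cfsg.Agent.Nodes.BNOf
  Cfsg.Agent.Nodes.RGDChev Cfsg.Agent.Nodes.Bruhat Cfsg.Agent.Nodes.SubComb Cfsg.Agent.Nodes.Coroot
open Cfsg.Agent.KFacts.RgdField Cfsg.Agent.KFacts.RgdChevCoord Cfsg.Agent.BpExc.TorCent Cfsg.Agent.BpExc.TorChev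
open Cfsg.Agent.GpExc.Field Cfsg.Agent.BpExc.Tow Cfsg.Agent.BpExc.TowChev Cfsg.Agent.BpExc.Fr
  Cfsg.Agent.BpExc.LangFr Cfsg.Agent.LangThm Cfsg.Agent.BpExc Cfsg.Agent.H129 Cfsg.Agent.H129.WData
  Cfsg.Agent.H129.TorusChar Cfsg.Agent.H129.TorusCent
  Cfsg.Agent.H129.TorusTw Cfsg.Agent.H129.TorusMain Cfsg.Agent.H493 Cfsg.Agent.H493.PGTorus
  Cfsg.Agent.H493.PGTwist

universe u

section Main

variable {D : ChevalleyDatum} {l : ℕ} {M : CoxeterMatrix (Fin l)} (hp : IsType D l M) {k : Type u} [Field k]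
  [IsAlgClosed k] {W : Type*} [Group W] [Finite W] (cs : CoxeterSystem M W) {p e : ℕ} [Fact p.Prime] [CharP k p]
  {σ : MulAut ↥(D.group k)} {g : (Fin l → ℤ) ≃+ (Fin l → ℤ)}
  {G0 : Type*} [Group G0] [Finite G0] {e0 : G0 →* ↥(D.group k)}

/-- **Adjacency with the characteristic.** -/
theorem rel_p_tw (hk : LocFin k) (he : 0 < e) (hσ : IsFrob p e σ)
    (F : Fr cs hp.isCartan (TT D k) (XX D l k) σ g) {d' : ℕ} {B' : Fin l → Fin l → ℤ} (hB : InvC D l d' B')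
    (hd' : d' ≠ 0) (he0 : Function.Injective e0) {d : ℕ} (hd : ∀ y, σ y = y → y ^ d ∈ e0.range)
    {w : W} {Th : Fin l → Fin l → ℤ} (hw : ∀ j, rep cs hp.isCartan w (g (sr j)) = Th j)
    {f : ℕ} {c : Fin (f + 1) → ℤ} {V : Fin (f + 1) → Fin l → ℤ} {U : Fin l → ℤ}
    (h : EigOK (fun i j => Th j i) c V U) (hc : c 0 = 1 ∨ c 0 = -1) {a : Fin l → ℤ} (ha : IsRoot cs hp.isCartan a)
    (hwa : rep cs hp.isCartan w (g a) = a) (hVa : ∀ i, ∑ m, a m * V i m = 0)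
    {r : ℕ} (hr : r.Prime) (hrd : ¬ r ∣ d) (hpd : ¬ p ∣ d)
    (h1 : (r : ℤ) ∣ pv c ((p ^ e : ℕ) : ℤ)) : PG.Rel G0 r p := by
  obtain ⟨n, z, hz, hσ', F'⟩ := exists_z hp cs hk he hσ F w
  obtain ⟨t, ht, h3, h4, h5⟩ := exists_t hp cs hσ' F' hB hd' hr (ne_char hc Fact.out he h1) (hL_of_eig hp cs hw h h1)
    (x₀ := U) (by
      rw [lam_unit h]
      intro h7
      have h8 := Int.natCast_dvd_natCast.mp (by simpa using h7 : (r : ℤ) ∣ ((1 : ℕ) : ℤ))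
      exact hr.one_lt.ne' (Nat.dvd_one.mp h8))
  obtain ⟨x, hx1, hx2, hx3⟩ := exists_x hp cs hk he hσ' F' ha hwa
  have hcomm : t * x = x * t := hx3 t ht (h5 a (by rw [lam_zero hVa]; exact dvd_zero _))
  have ho : ∀ y : ↥(D.group k), orderOf (z * y * z⁻¹) = orderOf y := fun y =>
    orderOf_injective (MulAut.conj z).toMonoidHom (MulAut.conj z).injective y
  refine CertBase.rel_desc he0 (y := z * t * z⁻¹) (y' := z * x * z⁻¹) (hd _ (fix_conj hz h3)) (hd _ (fix_conj hz hx1))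
    ?_ hr Fact.out (ne_char hc Fact.out he h1) ((ho t).trans h4) ((ho x).trans hx2) hrd hpd
  calc z * t * z⁻¹ * (z * x * z⁻¹) = z * (t * x) * z⁻¹ := by group
    _ = z * (x * t) * z⁻¹ := by rw [hcomm]
    _ = _ := by group

end Main

open Cfsg.Agent.H168.TwCover (pi6 pi4)

/-- `²E₆(q)` and the characteristic -/
theorem relp_six {K : Type u} [Field K] [Fintype K] {q : ℕ} (hq : IsPrimePow q) (hK : Fintype.card K = q ^ 2)
    {L : List (Fin 6 × Mat 6)} (hL : ChainOK PGE6.Am L) {Th : Mat 6} (hTh : ∀ j, hd L (pi6 j) = Th j)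
    {f : ℕ} {c : Fin (f + 1) → ℤ} {V : Fin (f + 1) → Fin 6 → ℤ} {U : Fin 6 → ℤ}
    (h : EigOK (fun i j => Th j i) c V U) (hc : c 0 = 1 ∨ c 0 = -1) {r₀ : ℕ} (hr₀ : r₀ < chevE6.nroots)
    (hfix : ∀ m, ∑ j, vec chevE6 6 r₀ j * Th j m = vec chevE6 6 r₀ m)
    (hV : ∀ i, ∑ m, vec chevE6 6 r₀ m * V i m = 0) {r s : ℕ} (hr : r.Prime) (hs : s.Prime)
    (hr3 : r ≠ 3) (h1 : (r : ℤ) ∣ pv c q) (h2 : s ∣ q) : PG.Rel ↥(twistedE6 K q) r s := by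
  have := PGE6.finW
  obtain ⟨p, e, hpF, hpk, he, hqe, hk⟩ := PGE6T.setup hq hK
  have hqe' : (q : ℤ) = ((p ^ e : ℕ) : ℤ) := by rw [hqe]
  rw [hqe'] at h1
  have hsp : s = p := (Nat.prime_dvd_prime_iff_eq hs hpF.out).1 (hs.dvd_of_dvd_pow (hqe ▸ h2))
  subst hsp
  have hroot := (isRoot_iff RGDTwE6.hp CoxeterMatrix.E₆.toCoxeterSystem (vec chevE6 6 r₀)).2 ⟨r₀, hr₀, rfl⟩
  have hlin := PGE6T.lin CoxeterMatrix.E₆.toCoxeterSystem hL hTh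
  have hs3 : ¬ s ∣ Nat.gcd 3 (q + 1) := by
    intro h3
    have h4 : s ∣ q + 1 := h3.trans (Nat.gcd_dvd_right _ _)
    exact hs.one_lt.ne' (Nat.dvd_one.1 ((Nat.dvd_add_right h2).1 h4))
  have hr3' : ¬ r ∣ Nat.gcd 3 (q + 1) := fun h3 =>
    hr3 ((Nat.prime_dvd_prime_iff_eq hr Nat.prime_three).1 (h3.trans (Nat.gcd_dvd_left _ _)))
  refine rel_p_tw RGDTwE6.hp CoxeterMatrix.E₆.toCoxeterSystem hk he TwE6Alg.isFrob_tau (TwE6Alg.fr_tau _)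
    TorusChar.invC_E6 (by norm_num) (TwE6Alg.embT_injective (algebraMap K (AlgebraicClosure K)) q)
    (d := Nat.gcd 3 (q + 1))
    (fun y hy => TwE6Alg.tau_pow _ hqe hq hK hy) hlin h hc hroot ?_ hV hr hr3' hs3 h1
  funext m
  rw [← hfix m]
  have h3 : vec chevE6 6 r₀ = ∑ j, vec chevE6 6 r₀ j • sr j := TorusChar.IsMC.eq_sum_sr _
  conv_lhs => rw [h3]
  rw [map_sum, map_sum, Finset.sum_apply]
  refine Finset.sum_congr rfl fun j _ => ?_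
  rw [map_zsmul, map_zsmul, hlin, Pi.smul_apply, smul_eq_mul]

/-- `³D₄(q)` and the characteristic -/
theorem relp_tri {K : Type u} [Field K] [Fintype K] {q : ℕ} (hq : IsPrimePow q) (hK : Fintype.card K = q ^ 3)
    {L : List (Fin 4 × Mat 4)} (hL : ChainOK DataD4C.Am L) {Th : Mat 4} (hTh : ∀ j, hd L (pi4 j) = Th j)
    {f : ℕ} {c : Fin (f + 1) → ℤ} {V : Fin (f + 1) → Fin 4 → ℤ} {U : Fin 4 → ℤ}
    (h : EigOK (fun i j => Th j i) c V U) (hc : c 0 = 1 ∨ c 0 = -1) {r₀ : ℕ} (hr₀ : r₀ < chevD4.nroots)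
    (hfix : ∀ m, ∑ j, vec chevD4 4 r₀ j * Th j m = vec chevD4 4 r₀ m)
    (hV : ∀ i, ∑ m, vec chevD4 4 r₀ m * V i m = 0) {r s : ℕ} (hr : r.Prime) (hs : s.Prime)
    (h1 : (r : ℤ) ∣ pv c q) (h2 : s ∣ q) : PG.Rel ↥(twistedD4 K q) r s := by
  have := PGD4T.finW
  obtain ⟨p, e, hpF, hpk, he, hqe, hk⟩ := PGD4T.setup hq hK
  have hqe' : (q : ℤ) = ((p ^ e : ℕ) : ℤ) := by rw [hqe]
  rw [hqe'] at h1
  have hsp : s = p := (Nat.prime_dvd_prime_iff_eq hs hpF.out).1 (hs.dvd_of_dvd_pow (hqe ▸ h2))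
  subst hsp
  have hroot := (isRoot_iff RGDTwD4.hp coxeterD4.toCoxeterSystem (vec chevD4 4 r₀)).2 ⟨r₀, hr₀, rfl⟩
  have hlin : ∀ j : Fin 4, rep coxeterD4.toCoxeterSystem RGDTwD4.hp.isCartan
      (coxeterD4.toCoxeterSystem.wordProd (L.map Prod.fst)) (TriD4.tri (sr j)) = Th j :=
    PGD4T.lin coxeterD4.toCoxeterSystem hL hTh
  refine rel_p_tw RGDTwD4.hp coxeterD4.toCoxeterSystem hk he TriD4.isFrob_tau (TriD4.fr_tau _) TorusChar.invC_D4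
    (by norm_num) (TriD4.embT_injective (algebraMap K (AlgebraicClosure K)) hq hK) (d := 1)
    (fun y hy => by rw [pow_one]; exact TriD4.tau_range _ hqe hq hK hy) hlin h hc hroot ?_ hV hr
    (fun h => hr.one_lt.ne' (Nat.dvd_one.1 h)) (fun h => hpF.out.one_lt.ne' (Nat.dvd_one.1 h)) h1
  funext m
  rw [← hfix m]
  have h3 : vec chevD4 4 r₀ = ∑ j, vec chevD4 4 r₀ j • sr j := TorusChar.IsMC.eq_sum_sr _
  conv_lhs => rw [h3]
  rw [map_sum, map_sum, Finset.sum_apply]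
  refine Finset.sum_congr rfl fun j _ => ?_
  rw [map_zsmul, map_zsmul, hlin, Pi.smul_apply, smul_eq_mul]

end Cfsg.Agent.R2.Spec.EE.CertBaseT
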