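import Cfsg.Agent.H168.ExcG2
import Cfsg.Agent.R2.Spec.EE.CertBase

/-!
# Adjacency of the prime divisors of two cyclotomic values through one torus, type G2, part 1 (helper2)
-/

set_option autoImplicit false

namespace Cfsg.Agent.R2.Spec.EE.CertG2

open Cfsg.Agent.H129.WData Cfsg.Agent.ChevalleyStructure.CoxeterGeomTypes Cfsg.Agent.Nodes.RGDChev
open Cfsg.Lie Cfsg.Lie.ChevalleyDatum
open Cfsg.Agent Cfsg.Agent.H493 Cfsg.Agent.H493.PGTorus Cfsg.Agent.H493.PGCyc Cfsg.Agent.H493.PGG2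
open Cfsg.Agent.H168.ExcAdj Cfsg.Agent.R2.Spec.EE.CertBase

universe u

/-- partial products, characteristic polynomial Φ1 Φ2 -/
def ch1_2 : List (Fin 2 × Mat 2) := [
    (0, ![![-1, 0], ![3, 1]])]

theorem ch1_2_ok : ChainOK Am ch1_2 := by decide +kernel

/-- coefficients, order 1 -/
def v1_2_at1 : Fin 1 → Fin 2 → ℤ := ![![-3, -2]]

theorem e1_2_at1 : EigOK (hd ch1_2) c1 v1_2_at1 ![-1, 1] := by decide +kernel

/-- coefficients, order 2 -/
def v1_2_at2 : Fin 1 → Fin 2 → ℤ := ![![1, 0]]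

theorem e1_2_at2 : EigOK (hd ch1_2) c2 v1_2_at2 ![1, 0] := by decide +kernel

theorem rel_1_1 {F : Type u} [Field F] [Finite F] {r s : ℕ} (hr : r.Prime) (hs : s.Prime) (hrs : r ≠ s)
    (h1 : phiC c1 (Nat.card F) 1 r) (h2 : phiC c1 (Nat.card F) 1 s) :
    PG.Rel ↥(chevG2.group F) r s := by
  have := finW
  exact rel_of_eig hp CoxeterMatrix.G₂.toCoxeterSystem H129.TorusChar.invC_G2 one_ne_zero
    (chain_rep hp CoxeterMatrix.G₂.toCoxeterSystem hA ch1_2_ok) e1_2_at1 e1_2_at1 hr hs hrs h1.1 h2.1 h1.2 h2.2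

theorem rel_2_1 {F : Type u} [Field F] [Finite F] {r s : ℕ} (hr : r.Prime) (hs : s.Prime) (hrs : r ≠ s)
    (h1 : phiC c2 (Nat.card F) 1 r) (h2 : phiC c1 (Nat.card F) 1 s) :
    PG.Rel ↥(chevG2.group F) r s := by
  have := finW
  exact rel_of_eig hp CoxeterMatrix.G₂.toCoxeterSystem H129.TorusChar.invC_G2 one_ne_zero
    (chain_rep hp CoxeterMatrix.G₂.toCoxeterSystem hA ch1_2_ok) e1_2_at2 e1_2_at1 hr hs hrs h1.1 h2.1 h1.2 h2.2

theorem rel_2_2 {F : Type u} [Field F] [Finite F] {r s : ℕ} (hr : r.Prime) (hs : s.Prime) (hrs : r ≠ s)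
    (h1 : phiC c2 (Nat.card F) 1 r) (h2 : phiC c2 (Nat.card F) 1 s) :
    PG.Rel ↥(chevG2.group F) r s := by
  have := finW
  exact rel_of_eig hp CoxeterMatrix.G₂.toCoxeterSystem H129.TorusChar.invC_G2 one_ne_zero
    (chain_rep hp CoxeterMatrix.G₂.toCoxeterSystem hA ch1_2_ok) e1_2_at2 e1_2_at2 hr hs hrs h1.1 h2.1 h1.2 h2.2

/-- partial products, characteristic polynomial Φ6 -/
def ch6 : List (Fin 2 × Mat 2) := [
    (1, ![![-1, -1], ![3, 2]]),
    (0, ![![-1, 0], ![3, 1]])]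

theorem ch6_ok : ChainOK Am ch6 := by decide +kernel

/-- coefficients, order 6 -/
def v6_at6 : Fin 2 → Fin 2 → ℤ := ![![-1, 0], ![-1, -1]]

theorem e6_at6 : EigOK (hd ch6) c6 v6_at6 ![-1, 1] := by decide +kernel

theorem rel_6_6 {F : Type u} [Field F] [Finite F] {r s : ℕ} (hr : r.Prime) (hs : s.Prime) (hrs : r ≠ s)
    (h1 : phiC c6 (Nat.card F) 1 r) (h2 : phiC c6 (Nat.card F) 1 s) :
    PG.Rel ↥(chevG2.group F) r s := by
  have := finW
  exact rel_of_eig hp CoxeterMatrix.G₂.toCoxeterSystem H129.TorusChar.invC_G2 one_ne_zero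
    (chain_rep hp CoxeterMatrix.G₂.toCoxeterSystem hA ch6_ok) e6_at6 e6_at6 hr hs hrs h1.1 h2.1 h1.2 h2.2

/-- partial products, characteristic polynomial Φ3 -/
def ch3 : List (Fin 2 × Mat 2) := [
    (1, ![![-2, -1], ![3, 1]]),
    (0, ![![-2, -1], ![3, 2]]),
    (1, ![![-1, -1], ![3, 2]]),
    (0, ![![-1, 0], ![3, 1]])]

theorem ch3_ok : ChainOK Am ch3 := by decide +kernel

/-- coefficients, order 3 -/
def v3_at3 : Fin 2 → Fin 2 → ℤ := ![![-1, -1], ![1, 0]]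

theorem e3_at3 : EigOK (hd ch3) c3 v3_at3 ![0, -1] := by decide +kernel

theorem rel_3_3 {F : Type u} [Field F] [Finite F] {r s : ℕ} (hr : r.Prime) (hs : s.Prime) (hrs : r ≠ s)
    (h1 : phiC c3 (Nat.card F) 1 r) (h2 : phiC c3 (Nat.card F) 1 s) :
    PG.Rel ↥(chevG2.group F) r s := by
  have := finW
  exact rel_of_eig hp CoxeterMatrix.G₂.toCoxeterSystem H129.TorusChar.invC_G2 one_ne_zero
    (chain_rep hp CoxeterMatrix.G₂.toCoxeterSystem hA ch3_ok) e3_at3 e3_at3 hr hs hrs h1.1 h2.1 h1.2 h2.2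

end Cfsg.Agent.R2.Spec.EE.CertG2
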