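import Cfsg.Agent.H168.ExcG2
import Cfsg.Agent.R2.Spec.EE.CertBase

/-!
# Adjacency with the characteristic, type G2 (helper2)
-/

set_option autoImplicit false

namespace Cfsg.Agent.R2.Spec.EE.CertG2

open Cfsg.Agent.H129.WData Cfsg.Agent.ChevalleyStructure.CoxeterGeomTypes Cfsg.Agent.Nodes.RGDChev
open Cfsg.Lie Cfsg.Lie.ChevalleyDatum
open Cfsg.Agent Cfsg.Agent.H493 Cfsg.Agent.H493.PGTorus Cfsg.Agent.H493.PGCyc Cfsg.Agent.H493.PGG2
open Cfsg.Agent.H168.ExcAdj Cfsg.Agent.R2.Spec.EE.CertBase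

universe u

/-- the highest root -/
def r0 : ℕ := 11

theorem r0_lt : r0 < chevG2.nroots := by decide +kernel

theorem r0_ok : vec chevG2 2 r0 = ![3, 2] := by decide +kernel

/-- partial products, characteristic polynomial Φ1^2 -/
def q1 : List (Fin 2 × Mat 2) := []

theorem q1_ok : ChainOK Am q1 := by decide +kernel

/-- coefficients of the functional, order 1 -/
def w1 : Fin 1 → Fin 2 → ℤ := ![![-2, 3]]

theorem g1 : EigOK (fun i j => hd q1 j i) c1 w1 ![1, 1] := by decide +kernel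

theorem f1 : ∀ m, ∑ j, vec chevG2 2 r0 j * hd q1 j m = vec chevG2 2 r0 m := by decide +kernel

theorem z1 : ∀ i, ∑ m, vec chevG2 2 r0 m * w1 i m = 0 := by decide +kernel

theorem rel_1_p {F : Type u} [Field F] [Finite F] {r s : ℕ} (hr : r.Prime) (hs : s.Prime)
    (h1 : phiC c1 (Nat.card F) 1 r) (h2 : s ∣ Nat.card F) : PG.Rel ↥(chevG2.group F) r s := by
  have := finW
  exact rel_p_of_eig hp CoxeterMatrix.G₂.toCoxeterSystem H129.TorusChar.invC_G2 one_ne_zero
    (chain_rep hp CoxeterMatrix.G₂.toCoxeterSystem hA q1_ok) g1 (Or.inr (by decide +kernel)) r0_lt f1 z1 hr hs h1.1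
    (fun h => absurd (Nat.dvd_one.1 h) hs.one_lt.ne') h1.2 h2

/-- partial products, characteristic polynomial Φ1 Φ2 -/
def q2 : List (Fin 2 × Mat 2) := [
    (0, ![![-1, 0], ![3, 1]])]

theorem q2_ok : ChainOK Am q2 := by decide +kernel

/-- coefficients of the functional, order 2 -/
def w2 : Fin 1 → Fin 2 → ℤ := ![![-2, 3]]

theorem g2 : EigOK (fun i j => hd q2 j i) c2 w2 ![1, 1] := by decide +kernel

theorem f2 : ∀ m, ∑ j, vec chevG2 2 r0 j * hd q2 j m = vec chevG2 2 r0 m := by decide +kernel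

theorem z2 : ∀ i, ∑ m, vec chevG2 2 r0 m * w2 i m = 0 := by decide +kernel

theorem rel_2_p {F : Type u} [Field F] [Finite F] {r s : ℕ} (hr : r.Prime) (hs : s.Prime)
    (h1 : phiC c2 (Nat.card F) 1 r) (h2 : s ∣ Nat.card F) : PG.Rel ↥(chevG2.group F) r s := by
  have := finW
  exact rel_p_of_eig hp CoxeterMatrix.G₂.toCoxeterSystem H129.TorusChar.invC_G2 one_ne_zero
    (chain_rep hp CoxeterMatrix.G₂.toCoxeterSystem hA q2_ok) g2 (Or.inl (by decide +kernel)) r0_lt f2 z2 hr hs h1.1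
    (fun h => absurd (Nat.dvd_one.1 h) hs.one_lt.ne') h1.2 h2

end Cfsg.Agent.R2.Spec.EE.CertG2
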