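import Cfsg.Agent.R2.Spec.EE.CertBase
import Cfsg.Agent.H493.PGF4
import Cfsg.Agent.H493.PGG2

/-!
# Adjacency with the characteristic, types G2 and F4 (helper1)
-/

set_option autoImplicit false

namespace Cfsg.Agent.R2.Spec.EE.CertSm

open Cfsg.Agent.H129.WData Cfsg.Agent.ChevalleyStructure.CoxeterGeomTypes Cfsg.Agent.Nodes.RGDChev
open Cfsg.Lie Cfsg.Lie.ChevalleyDatum
open Cfsg.Agent Cfsg.Agent.H493 Cfsg.Agent.H493.PGTorus Cfsg.Agent.H493.PGCyc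
open Cfsg.Agent.R2.Spec.EE.CertBase

universe u

/-- the highest root of G2 -/
def rG : ℕ := 11

theorem rG_ok : vec chevG2 2 rG = ![3, 2] := by decide +kernel

/-- the highest root of F4 -/
def rF : ℕ := 47

theorem rF_ok : vec chevF4 4 rF = ![2, 4, 3, 2] := by decide +kernel

/-- partial products -/
def G_q1 : List (Fin 2 × Mat 2) := []

theorem G_q1_ok : ChainOK PGG2.Am G_q1 := by decide +kernel

/-- coefficients of the functional, order 1 -/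
def G_v1 : Fin 1 → Fin 2 → ℤ := ![![2, -3]]

theorem G_e1 : EigOK (fun i j => hd G_q1 j i) c1 G_v1 ![-1, -1] := by decide +kernel

theorem G_f1 : ∀ m, ∑ j, vec chevG2 2 rG j * hd G_q1 j m = vec chevG2 2 rG m := by decide +kernel

theorem G_z1 : ∀ i, ∑ m, vec chevG2 2 rG m * G_v1 i m = 0 := by decide +kernel

theorem rel_G_1_p {F : Type u} [Field F] [Finite F] {r s : ℕ} (hr : r.Prime) (hs : s.Prime)
    (h1 : (r : ℤ) ∣ pv c1 (Nat.card F)) (h2 : s ∣ Nat.card F) : PG.Rel ↥(chevG2.group F) r s := by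
  have := PGG2.finW
  exact rel_p_of_eig PGG2.hp CoxeterMatrix.G₂.toCoxeterSystem H129.TorusChar.invC_G2 one_ne_zero
    (chain_rep PGG2.hp CoxeterMatrix.G₂.toCoxeterSystem PGG2.hA G_q1_ok) G_e1 (by decide) (r₀ := rG) (by decide +kernel) G_f1 G_z1 hr hs
    (fun h => hr.one_lt.ne' (Nat.dvd_one.1 h)) (fun h => absurd (Nat.dvd_one.1 h) hs.one_lt.ne') h1 h2

/-- partial products -/
def G_q2 : List (Fin 2 × Mat 2) := [
    (0, ![![-1, 0], ![3, 1]])]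

theorem G_q2_ok : ChainOK PGG2.Am G_q2 := by decide +kernel

/-- coefficients of the functional, order 2 -/
def G_v2 : Fin 1 → Fin 2 → ℤ := ![![2, -3]]

theorem G_e2 : EigOK (fun i j => hd G_q2 j i) c2 G_v2 ![-1, -1] := by decide +kernel

theorem G_f2 : ∀ m, ∑ j, vec chevG2 2 rG j * hd G_q2 j m = vec chevG2 2 rG m := by decide +kernel

theorem G_z2 : ∀ i, ∑ m, vec chevG2 2 rG m * G_v2 i m = 0 := by decide +kernel

theorem rel_G_2_p {F : Type u} [Field F] [Finite F] {r s : ℕ} (hr : r.Prime) (hs : s.Prime)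
    (h1 : (r : ℤ) ∣ pv c2 (Nat.card F)) (h2 : s ∣ Nat.card F) : PG.Rel ↥(chevG2.group F) r s := by
  have := PGG2.finW
  exact rel_p_of_eig PGG2.hp CoxeterMatrix.G₂.toCoxeterSystem H129.TorusChar.invC_G2 one_ne_zero
    (chain_rep PGG2.hp CoxeterMatrix.G₂.toCoxeterSystem PGG2.hA G_q2_ok) G_e2 (by decide) (r₀ := rG) (by decide +kernel) G_f2 G_z2 hr hs
    (fun h => hr.one_lt.ne' (Nat.dvd_one.1 h)) (fun h => absurd (Nat.dvd_one.1 h) hs.one_lt.ne') h1 h2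

/-- partial products -/
def F_q1 : List (Fin 4 × Mat 4) := []

theorem F_q1_ok : ChainOK PGF4.Am F_q1 := by decide +kernel

/-- coefficients of the functional, order 1 -/
def F_v1 : Fin 1 → Fin 4 → ℤ := ![![0, -1, 0, 2]]

theorem F_e1 : EigOK (fun i j => hd F_q1 j i) c1 F_v1 ![-2, -1, -2, 0] := by decide +kernel

theorem F_f1 : ∀ m, ∑ j, vec chevF4 4 rF j * hd F_q1 j m = vec chevF4 4 rF m := by decide +kernel

theorem F_z1 : ∀ i, ∑ m, vec chevF4 4 rF m * F_v1 i m = 0 := by decide +kernel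

theorem rel_F_1_p {F : Type u} [Field F] [Finite F] {r s : ℕ} (hr : r.Prime) (hs : s.Prime)
    (h1 : (r : ℤ) ∣ pv c1 (Nat.card F)) (h2 : s ∣ Nat.card F) : PG.Rel ↥(chevF4.group F) r s := by
  have := PGF4.finW
  exact rel_p_of_eig PGF4.hp CoxeterMatrix.F₄.toCoxeterSystem H129.TorusChar.invC_F4 one_ne_zero
    (chain_rep PGF4.hp CoxeterMatrix.F₄.toCoxeterSystem PGF4.hA F_q1_ok) F_e1 (by decide) (r₀ := rF) (by decide +kernel) F_f1 F_z1 hr hs
    (fun h => hr.one_lt.ne' (Nat.dvd_one.1 h)) (fun h => absurd (Nat.dvd_one.1 h) hs.one_lt.ne') h1 h2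

/-- partial products -/
def F_q2 : List (Fin 4 × Mat 4) := [
    (0, ![![-1, 0, 0, 0], ![1, 1, 0, 0], ![0, 0, 1, 0], ![0, 0, 0, 1]])]

theorem F_q2_ok : ChainOK PGF4.Am F_q2 := by decide +kernel

/-- coefficients of the functional, order 2 -/
def F_v2 : Fin 1 → Fin 4 → ℤ := ![![2, -1, 0, 0]]

theorem F_e2 : EigOK (fun i j => hd F_q2 j i) c2 F_v2 ![0, -1, -2, -2] := by decide +kernel

theorem F_f2 : ∀ m, ∑ j, vec chevF4 4 rF j * hd F_q2 j m = vec chevF4 4 rF m := by decide +kernel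

theorem F_z2 : ∀ i, ∑ m, vec chevF4 4 rF m * F_v2 i m = 0 := by decide +kernel

theorem rel_F_2_p {F : Type u} [Field F] [Finite F] {r s : ℕ} (hr : r.Prime) (hs : s.Prime)
    (h1 : (r : ℤ) ∣ pv c2 (Nat.card F)) (h2 : s ∣ Nat.card F) : PG.Rel ↥(chevF4.group F) r s := by
  have := PGF4.finW
  exact rel_p_of_eig PGF4.hp CoxeterMatrix.F₄.toCoxeterSystem H129.TorusChar.invC_F4 one_ne_zero
    (chain_rep PGF4.hp CoxeterMatrix.F₄.toCoxeterSystem PGF4.hA F_q2_ok) F_e2 (by decide) (r₀ := rF) (by decide +kernel) F_f2 F_z2 hr hs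
    (fun h => hr.one_lt.ne' (Nat.dvd_one.1 h)) (fun h => absurd (Nat.dvd_one.1 h) hs.one_lt.ne') h1 h2

/-- partial products -/
def F_q3 : List (Fin 4 × Mat 4) := [
    (1, ![![-1, -1, 0, 0], ![1, 0, 0, 0], ![0, 2, 1, 0], ![0, 0, 0, 1]]),
    (0, ![![-1, 0, 0, 0], ![1, 1, 0, 0], ![0, 0, 1, 0], ![0, 0, 0, 1]])]

theorem F_q3_ok : ChainOK PGF4.Am F_q3 := by decide +kernel

/-- coefficients of the functional, order 3 -/
def F_v3 : Fin 2 → Fin 4 → ℤ := ![![-2, 1, 0, 0], ![-1, 2, -2, 0]]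

theorem F_e3 : EigOK (fun i j => hd F_q3 j i) c3 F_v3 ![0, 1, 1, -2] := by decide +kernel

theorem F_f3 : ∀ m, ∑ j, vec chevF4 4 rF j * hd F_q3 j m = vec chevF4 4 rF m := by decide +kernel

theorem F_z3 : ∀ i, ∑ m, vec chevF4 4 rF m * F_v3 i m = 0 := by decide +kernel

theorem rel_F_3_p {F : Type u} [Field F] [Finite F] {r s : ℕ} (hr : r.Prime) (hs : s.Prime)
    (h1 : (r : ℤ) ∣ pv c3 (Nat.card F)) (h2 : s ∣ Nat.card F) : PG.Rel ↥(chevF4.group F) r s := by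
  have := PGF4.finW
  exact rel_p_of_eig PGF4.hp CoxeterMatrix.F₄.toCoxeterSystem H129.TorusChar.invC_F4 one_ne_zero
    (chain_rep PGF4.hp CoxeterMatrix.F₄.toCoxeterSystem PGF4.hA F_q3_ok) F_e3 (by decide) (r₀ := rF) (by decide +kernel) F_f3 F_z3 hr hs
    (fun h => hr.one_lt.ne' (Nat.dvd_one.1 h)) (fun h => absurd (Nat.dvd_one.1 h) hs.one_lt.ne') h1 h2

/-- partial products -/
def F_q4 : List (Fin 4 × Mat 4) := [
    (2, ![![1, 1, 1, 0], ![0, -1, -1, 0], ![0, 2, 1, 0], ![0, 0, 1, 1]]),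
    (1, ![![1, 1, 0, 0], ![0, -1, 0, 0], ![0, 2, 1, 0], ![0, 0, 0, 1]])]

theorem F_q4_ok : ChainOK PGF4.Am F_q4 := by decide +kernel

/-- coefficients of the functional, order 4 -/
def F_v4 : Fin 2 → Fin 4 → ℤ := ![![1, -1, 0, 1], ![0, -1, 2, -1]]

theorem F_e4 : EigOK (fun i j => hd F_q4 j i) c4 F_v4 ![-1, -2, -1, 0] := by decide +kernel

theorem F_f4 : ∀ m, ∑ j, vec chevF4 4 rF j * hd F_q4 j m = vec chevF4 4 rF m := by decide +kernel

theorem F_z4 : ∀ i, ∑ m, vec chevF4 4 rF m * F_v4 i m = 0 := by decide +kernel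

theorem rel_F_4_p {F : Type u} [Field F] [Finite F] {r s : ℕ} (hr : r.Prime) (hs : s.Prime)
    (h1 : (r : ℤ) ∣ pv c4 (Nat.card F)) (h2 : s ∣ Nat.card F) : PG.Rel ↥(chevF4.group F) r s := by
  have := PGF4.finW
  exact rel_p_of_eig PGF4.hp CoxeterMatrix.F₄.toCoxeterSystem H129.TorusChar.invC_F4 one_ne_zero
    (chain_rep PGF4.hp CoxeterMatrix.F₄.toCoxeterSystem PGF4.hA F_q4_ok) F_e4 (by decide) (r₀ := rF) (by decide +kernel) F_f4 F_z4 hr hs
    (fun h => hr.one_lt.ne' (Nat.dvd_one.1 h)) (fun h => absurd (Nat.dvd_one.1 h) hs.one_lt.ne') h1 h2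

/-- partial products -/
def F_q6 : List (Fin 4 × Mat 4) := [
    (2, ![![-1, -1, -1, 0], ![1, 0, 0, 0], ![0, 2, 1, 0], ![0, 0, 1, 1]]),
    (1, ![![-1, -1, 0, 0], ![1, 0, 0, 0], ![0, 2, 1, 0], ![0, 0, 0, 1]]),
    (0, ![![-1, 0, 0, 0], ![1, 1, 0, 0], ![0, 0, 1, 0], ![0, 0, 0, 1]])]

theorem F_q6_ok : ChainOK PGF4.Am F_q6 := by decide +kernel

/-- coefficients of the functional, order 6 -/
def F_v6 : Fin 2 → Fin 4 → ℤ := ![![1, 0, -2, 2], ![-1, -1, 2, 0]]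

theorem F_e6 : EigOK (fun i j => hd F_q6 j i) c6 F_v6 ![-1, -1, -1, 0] := by decide +kernel

theorem F_f6 : ∀ m, ∑ j, vec chevF4 4 rF j * hd F_q6 j m = vec chevF4 4 rF m := by decide +kernel

theorem F_z6 : ∀ i, ∑ m, vec chevF4 4 rF m * F_v6 i m = 0 := by decide +kernel

theorem rel_F_6_p {F : Type u} [Field F] [Finite F] {r s : ℕ} (hr : r.Prime) (hs : s.Prime)
    (h1 : (r : ℤ) ∣ pv c6 (Nat.card F)) (h2 : s ∣ Nat.card F) : PG.Rel ↥(chevF4.group F) r s := by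
  have := PGF4.finW
  exact rel_p_of_eig PGF4.hp CoxeterMatrix.F₄.toCoxeterSystem H129.TorusChar.invC_F4 one_ne_zero
    (chain_rep PGF4.hp CoxeterMatrix.F₄.toCoxeterSystem PGF4.hA F_q6_ok) F_e6 (by decide) (r₀ := rF) (by decide +kernel) F_f6 F_z6 hr hs
    (fun h => hr.one_lt.ne' (Nat.dvd_one.1 h)) (fun h => absurd (Nat.dvd_one.1 h) hs.one_lt.ne') h1 h2

end Cfsg.Agent.R2.Spec.EE.CertSm
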