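import Cfsg.Agent.R2.Spec.EE.CertE8A
import Cfsg.Agent.R2.Spec.EE.CertE8B
import Cfsg.Agent.R2.Spec.EE.CertE8C
import Cfsg.Agent.R2.Spec.EE.CertE8D
import Cfsg.Agent.R2.Spec.EE.CertE8P
import Cfsg.Agent.R2.Spec.EE.CertE7A
import Cfsg.Agent.R2.Spec.EE.CertE7B
import Cfsg.Agent.R2.Spec.EE.CertE7C
import Cfsg.Agent.R2.Spec.EE.CertE7P

/-!
# Tables of the adjacent classes, types E8 and E7 (helper2)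

* `cyc n q` : the value of the cyclotomic polynomial, `n` one of the degrees of E8;
* `rel8`, `rel7` : the pairs `L8`, `L7` of classes are adjacent (equal classes too);
* `relp8`, `relp7` : the classes `P8`, `P7` are adjacent to the characteristic.
-/

set_option autoImplicit false

namespace Cfsg.Agent.R2.Spec.EE.CertTab

open Cfsg Cfsg.Lie Cfsg.Lie.ChevalleyDatum Cfsg.Agent Cfsg.Agent.H493 Cfsg.Agent.H493.PGTorus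
  Cfsg.Agent.H493.PGCyc Cfsg.Agent.H168.ExcAdj Cfsg.Agent.H168

universe u

/-- values of cyclotomic polynomials -/
def cyc : ℕ → ℤ → ℤ
  | 1, q => pv c1 q
  | 2, q => pv c2 q
  | 3, q => pv c3 q
  | 4, q => pv c4 q
  | 5, q => pv c5 q
  | 6, q => pv c6 q
  | 7, q => pv c7 q
  | 8, q => pv c8 q
  | 9, q => pv c9 q
  | 10, q => pv c10 q
  | 12, q => pv c12 q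
  | 14, q => pv c14 q
  | 15, q => pv c15 q
  | 18, q => pv c18 q
  | 20, q => pv c20 q
  | 24, q => pv c24 q
  | 30, q => pv c30 q
  | _, _ => 1

/-- the adjacent classes -/
def L8 : List (ℕ × ℕ) := [
    (1, 1), (2, 2), (3, 3), (4, 4), (5, 5), (6, 6), (7, 7), (8, 8), (9, 9), (10, 10), (12, 12),
    (14, 14), (15, 15), (18, 18), (20, 20), (24, 24), (30, 30), (2, 1), (3, 1), (3, 2), (4, 1), (4, 2),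
    (4, 3), (5, 1), (5, 2), (5, 3), (5, 4), (6, 1), (6, 2), (6, 3), (6, 4), (7, 1), (7, 2), (8, 1),
    (8, 2), (8, 3), (8, 4), (8, 6), (9, 1), (9, 2), (9, 3), (10, 1), (10, 2), (10, 4), (10, 6),
    (12, 1), (12, 2), (12, 3), (12, 4), (12, 6), (14, 1), (14, 2), (18, 1), (18, 2), (18, 6)]

/-- the classes adjacent to the characteristic -/
def P8 : List ℕ := [1, 2, 3, 4, 5, 6, 7, 8, 9, 10, 12, 14, 18]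

theorem rel8_le {F : Type u} [Field F] [Finite F] {r s : ℕ} (hr : r.Prime) (hs : s.Prime) (hrs : r ≠ s)
    (hrd : ¬ r ∣ 1) (hsd : ¬ s ∣ 1) {a b : ℕ} (h : (a, b) ∈ L8) (h1 : (r : ℤ) ∣ cyc a (Nat.card F))
    (h2 : (s : ℤ) ∣ cyc b (Nat.card F)) : PG.Rel ↥(chevE8.group F) r s := by
  simp only [L8, List.mem_cons, Prod.mk.injEq, List.not_mem_nil, or_false] at h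
  rcases h with ⟨rfl, rfl⟩ | ⟨rfl, rfl⟩ | ⟨rfl, rfl⟩ | ⟨rfl, rfl⟩ | ⟨rfl, rfl⟩ | ⟨rfl, rfl⟩ | ⟨rfl, rfl⟩ |
    ⟨rfl, rfl⟩ | ⟨rfl, rfl⟩ | ⟨rfl, rfl⟩ | ⟨rfl, rfl⟩ | ⟨rfl, rfl⟩ | ⟨rfl, rfl⟩ | ⟨rfl, rfl⟩ | ⟨rfl, rfl⟩ |
    ⟨rfl, rfl⟩ | ⟨rfl, rfl⟩ | ⟨rfl, rfl⟩ | ⟨rfl, rfl⟩ | ⟨rfl, rfl⟩ | ⟨rfl, rfl⟩ | ⟨rfl, rfl⟩ | ⟨rfl, rfl⟩ |
    ⟨rfl, rfl⟩ | ⟨rfl, rfl⟩ | ⟨rfl, rfl⟩ | ⟨rfl, rfl⟩ | ⟨rfl, rfl⟩ | ⟨rfl, rfl⟩ | ⟨rfl, rfl⟩ | ⟨rfl, rfl⟩ |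
    ⟨rfl, rfl⟩ | ⟨rfl, rfl⟩ | ⟨rfl, rfl⟩ | ⟨rfl, rfl⟩ | ⟨rfl, rfl⟩ | ⟨rfl, rfl⟩ | ⟨rfl, rfl⟩ | ⟨rfl, rfl⟩ |
    ⟨rfl, rfl⟩ | ⟨rfl, rfl⟩ | ⟨rfl, rfl⟩ | ⟨rfl, rfl⟩ | ⟨rfl, rfl⟩ | ⟨rfl, rfl⟩ | ⟨rfl, rfl⟩ | ⟨rfl, rfl⟩ |
    ⟨rfl, rfl⟩ | ⟨rfl, rfl⟩ | ⟨rfl, rfl⟩ | ⟨rfl, rfl⟩ | ⟨rfl, rfl⟩ | ⟨rfl, rfl⟩ | ⟨rfl, rfl⟩ | ⟨rfl, rfl⟩
  · exact ExcE8.rel1 hr hs hrs ⟨hrd, h1⟩ ⟨hsd, h2⟩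
  · exact ExcE8.rel2 hr hs hrs ⟨hrd, h1⟩ ⟨hsd, h2⟩
  · exact ExcE8.rel3 hr hs hrs ⟨hrd, h1⟩ ⟨hsd, h2⟩
  · exact ExcE8.rel4 hr hs hrs ⟨hrd, h1⟩ ⟨hsd, h2⟩
  · exact ExcE8.rel5 hr hs hrs ⟨hrd, h1⟩ ⟨hsd, h2⟩
  · exact ExcE8.rel6 hr hs hrs ⟨hrd, h1⟩ ⟨hsd, h2⟩
  · exact ExcE8.rel7 hr hs hrs ⟨hrd, h1⟩ ⟨hsd, h2⟩
  · exact ExcE8.rel8 hr hs hrs ⟨hrd, h1⟩ ⟨hsd, h2⟩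
  · exact ExcE8.rel9 hr hs hrs ⟨hrd, h1⟩ ⟨hsd, h2⟩
  · exact ExcE8.rel10 hr hs hrs ⟨hrd, h1⟩ ⟨hsd, h2⟩
  · exact ExcE8.rel12 hr hs hrs ⟨hrd, h1⟩ ⟨hsd, h2⟩
  · exact ExcE8.rel14 hr hs hrs ⟨hrd, h1⟩ ⟨hsd, h2⟩
  · exact ExcE8.rel15 hr hs hrs ⟨hrd, h1⟩ ⟨hsd, h2⟩
  · exact ExcE8.rel18 hr hs hrs ⟨hrd, h1⟩ ⟨hsd, h2⟩
  · exact ExcE8.rel20 hr hs hrs ⟨hrd, h1⟩ ⟨hsd, h2⟩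
  · exact ExcE8.rel24 hr hs hrs ⟨hrd, h1⟩ ⟨hsd, h2⟩
  · exact ExcE8.rel30 hr hs hrs ⟨hrd, h1⟩ ⟨hsd, h2⟩
  · exact CertE8.rel_2_1 hr hs hrs ⟨hrd, h1⟩ ⟨hsd, h2⟩
  · exact CertE8.rel_3_1 hr hs hrs ⟨hrd, h1⟩ ⟨hsd, h2⟩
  · exact CertE8.rel_3_2 hr hs hrs ⟨hrd, h1⟩ ⟨hsd, h2⟩
  · exact CertE8.rel_4_1 hr hs hrs ⟨hrd, h1⟩ ⟨hsd, h2⟩
  · exact CertE8.rel_4_2 hr hs hrs ⟨hrd, h1⟩ ⟨hsd, h2⟩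
  · exact CertE8.rel_4_3 hr hs hrs ⟨hrd, h1⟩ ⟨hsd, h2⟩
  · exact CertE8.rel_5_1 hr hs hrs ⟨hrd, h1⟩ ⟨hsd, h2⟩
  · exact CertE8.rel_5_2 hr hs hrs ⟨hrd, h1⟩ ⟨hsd, h2⟩
  · exact CertE8.rel_5_3 hr hs hrs ⟨hrd, h1⟩ ⟨hsd, h2⟩
  · exact CertE8.rel_5_4 hr hs hrs ⟨hrd, h1⟩ ⟨hsd, h2⟩
  · exact CertE8.rel_6_1 hr hs hrs ⟨hrd, h1⟩ ⟨hsd, h2⟩
  · exact CertE8.rel_6_2 hr hs hrs ⟨hrd, h1⟩ ⟨hsd, h2⟩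
  · exact CertE8.rel_6_3 hr hs hrs ⟨hrd, h1⟩ ⟨hsd, h2⟩
  · exact CertE8.rel_6_4 hr hs hrs ⟨hrd, h1⟩ ⟨hsd, h2⟩
  · exact CertE8.rel_7_1 hr hs hrs ⟨hrd, h1⟩ ⟨hsd, h2⟩
  · exact CertE8.rel_7_2 hr hs hrs ⟨hrd, h1⟩ ⟨hsd, h2⟩
  · exact CertE8.rel_8_1 hr hs hrs ⟨hrd, h1⟩ ⟨hsd, h2⟩
  · exact CertE8.rel_8_2 hr hs hrs ⟨hrd, h1⟩ ⟨hsd, h2⟩
  · exact CertE8.rel_8_3 hr hs hrs ⟨hrd, h1⟩ ⟨hsd, h2⟩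
  · exact CertE8.rel_8_4 hr hs hrs ⟨hrd, h1⟩ ⟨hsd, h2⟩
  · exact CertE8.rel_8_6 hr hs hrs ⟨hrd, h1⟩ ⟨hsd, h2⟩
  · exact CertE8.rel_9_1 hr hs hrs ⟨hrd, h1⟩ ⟨hsd, h2⟩
  · exact CertE8.rel_9_2 hr hs hrs ⟨hrd, h1⟩ ⟨hsd, h2⟩
  · exact CertE8.rel_9_3 hr hs hrs ⟨hrd, h1⟩ ⟨hsd, h2⟩
  · exact CertE8.rel_10_1 hr hs hrs ⟨hrd, h1⟩ ⟨hsd, h2⟩
  · exact CertE8.rel_10_2 hr hs hrs ⟨hrd, h1⟩ ⟨hsd, h2⟩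
  · exact CertE8.rel_10_4 hr hs hrs ⟨hrd, h1⟩ ⟨hsd, h2⟩
  · exact CertE8.rel_10_6 hr hs hrs ⟨hrd, h1⟩ ⟨hsd, h2⟩
  · exact CertE8.rel_12_1 hr hs hrs ⟨hrd, h1⟩ ⟨hsd, h2⟩
  · exact CertE8.rel_12_2 hr hs hrs ⟨hrd, h1⟩ ⟨hsd, h2⟩
  · exact CertE8.rel_12_3 hr hs hrs ⟨hrd, h1⟩ ⟨hsd, h2⟩
  · exact CertE8.rel_12_4 hr hs hrs ⟨hrd, h1⟩ ⟨hsd, h2⟩
  · exact CertE8.rel_12_6 hr hs hrs ⟨hrd, h1⟩ ⟨hsd, h2⟩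
  · exact CertE8.rel_14_1 hr hs hrs ⟨hrd, h1⟩ ⟨hsd, h2⟩
  · exact CertE8.rel_14_2 hr hs hrs ⟨hrd, h1⟩ ⟨hsd, h2⟩
  · exact CertE8.rel_18_1 hr hs hrs ⟨hrd, h1⟩ ⟨hsd, h2⟩
  · exact CertE8.rel_18_2 hr hs hrs ⟨hrd, h1⟩ ⟨hsd, h2⟩
  · exact CertE8.rel_18_6 hr hs hrs ⟨hrd, h1⟩ ⟨hsd, h2⟩

/-- **Adjacent classes of `E8(q)`.** -/
theorem rel8 {F : Type u} [Field F] [Finite F] {r s : ℕ} (hr : r.Prime) (hs : s.Prime) (hrs : r ≠ s)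
    {a b : ℕ} (h : (a, b) ∈ L8 ∨ (b, a) ∈ L8) (h1 : (r : ℤ) ∣ cyc a (Nat.card F))
    (h2 : (s : ℤ) ∣ cyc b (Nat.card F)) : PG.Rel ↥(chevE8.group F) r s := by
  have hrd : ¬ r ∣ 1 := fun h => hr.one_lt.ne' (Nat.dvd_one.1 h)
  have hsd : ¬ s ∣ 1 := fun h => hs.one_lt.ne' (Nat.dvd_one.1 h)
  rcases h with h | h
  · exact rel8_le hr hs hrs hrd hsd h h1 h2
  · exact (rel8_le hs hr hrs.symm hsd hrd h h2 h1).symm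

/-- **Classes of `E8(q)` adjacent to the characteristic.** -/
theorem relp8 {F : Type u} [Field F] [Finite F] {r s : ℕ} (hr : r.Prime) (hs : s.Prime)
    {a : ℕ} (h : a ∈ P8) (h1 : (r : ℤ) ∣ cyc a (Nat.card F)) (h2 : s ∣ Nat.card F) :
    PG.Rel ↥(chevE8.group F) r s := by
  have hrd : ¬ r ∣ 1 := fun h => hr.one_lt.ne' (Nat.dvd_one.1 h)
  simp only [P8, List.mem_cons, List.not_mem_nil, or_false] at h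
  rcases h with rfl | rfl | rfl | rfl | rfl | rfl | rfl | rfl | rfl | rfl | rfl | rfl | rfl
  · exact CertE8.rel_1_p hr hs ⟨hrd, h1⟩ h2
  · exact CertE8.rel_2_p hr hs ⟨hrd, h1⟩ h2
  · exact CertE8.rel_3_p hr hs ⟨hrd, h1⟩ h2
  · exact CertE8.rel_4_p hr hs ⟨hrd, h1⟩ h2
  · exact CertE8.rel_5_p hr hs ⟨hrd, h1⟩ h2
  · exact CertE8.rel_6_p hr hs ⟨hrd, h1⟩ h2
  · exact CertE8.rel_7_p hr hs ⟨hrd, h1⟩ h2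
  · exact CertE8.rel_8_p hr hs ⟨hrd, h1⟩ h2
  · exact CertE8.rel_9_p hr hs ⟨hrd, h1⟩ h2
  · exact CertE8.rel_10_p hr hs ⟨hrd, h1⟩ h2
  · exact CertE8.rel_12_p hr hs ⟨hrd, h1⟩ h2
  · exact CertE8.rel_14_p hr hs ⟨hrd, h1⟩ h2
  · exact CertE8.rel_18_p hr hs ⟨hrd, h1⟩ h2

/-- the adjacent classes -/
def L7 : List (ℕ × ℕ) := [
    (1, 1), (2, 2), (3, 3), (4, 4), (5, 5), (6, 6), (7, 7), (8, 8), (9, 9), (10, 10), (12, 12),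
    (14, 14), (18, 18), (2, 1), (3, 1), (3, 2), (4, 1), (4, 2), (4, 3), (5, 1), (5, 2), (5, 3), (6, 1),
    (6, 2), (6, 3), (6, 4), (7, 1), (8, 1), (8, 2), (8, 4), (9, 1), (10, 1), (10, 2), (10, 6), (12, 1),
    (12, 2), (12, 3), (12, 6), (14, 2), (18, 2)]

/-- the classes adjacent to the characteristic -/
def P7 : List ℕ := [1, 2, 3, 4, 5, 6, 8, 10, 12]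

theorem rel7_le {F : Type u} [Field F] [Finite F] {r s : ℕ} (hr : r.Prime) (hs : s.Prime) (hrs : r ≠ s)
    (hrd : ¬ r ∣ 2) (hsd : ¬ s ∣ 2) {a b : ℕ} (h : (a, b) ∈ L7) (h1 : (r : ℤ) ∣ cyc a (Nat.card F))
    (h2 : (s : ℤ) ∣ cyc b (Nat.card F)) : PG.Rel ↥(chevE7.group F) r s := by
  simp only [L7, List.mem_cons, Prod.mk.injEq, List.not_mem_nil, or_false] at h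
  rcases h with ⟨rfl, rfl⟩ | ⟨rfl, rfl⟩ | ⟨rfl, rfl⟩ | ⟨rfl, rfl⟩ | ⟨rfl, rfl⟩ | ⟨rfl, rfl⟩ | ⟨rfl, rfl⟩ |
    ⟨rfl, rfl⟩ | ⟨rfl, rfl⟩ | ⟨rfl, rfl⟩ | ⟨rfl, rfl⟩ | ⟨rfl, rfl⟩ | ⟨rfl, rfl⟩ | ⟨rfl, rfl⟩ | ⟨rfl, rfl⟩ |
    ⟨rfl, rfl⟩ | ⟨rfl, rfl⟩ | ⟨rfl, rfl⟩ | ⟨rfl, rfl⟩ | ⟨rfl, rfl⟩ | ⟨rfl, rfl⟩ | ⟨rfl, rfl⟩ | ⟨rfl, rfl⟩ |
    ⟨rfl, rfl⟩ | ⟨rfl, rfl⟩ | ⟨rfl, rfl⟩ | ⟨rfl, rfl⟩ | ⟨rfl, rfl⟩ | ⟨rfl, rfl⟩ | ⟨rfl, rfl⟩ | ⟨rfl, rfl⟩ |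
    ⟨rfl, rfl⟩ | ⟨rfl, rfl⟩ | ⟨rfl, rfl⟩ | ⟨rfl, rfl⟩ | ⟨rfl, rfl⟩ | ⟨rfl, rfl⟩ | ⟨rfl, rfl⟩ | ⟨rfl, rfl⟩ |
    ⟨rfl, rfl⟩
  · exact ExcE7.rel1 hr hs hrs ⟨hrd, h1⟩ ⟨hsd, h2⟩
  · exact ExcE7.rel2 hr hs hrs ⟨hrd, h1⟩ ⟨hsd, h2⟩
  · exact ExcE7.rel3 hr hs hrs ⟨hrd, h1⟩ ⟨hsd, h2⟩
  · exact ExcE7.rel4 hr hs hrs ⟨hrd, h1⟩ ⟨hsd, h2⟩
  · exact ExcE7.rel5 hr hs hrs ⟨hrd, h1⟩ ⟨hsd, h2⟩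
  · exact ExcE7.rel6 hr hs hrs ⟨hrd, h1⟩ ⟨hsd, h2⟩
  · exact ExcE7.rel7 hr hs hrs ⟨hrd, h1⟩ ⟨hsd, h2⟩
  · exact ExcE7.rel8 hr hs hrs ⟨hrd, h1⟩ ⟨hsd, h2⟩
  · exact ExcE7.rel9 hr hs hrs ⟨hrd, h1⟩ ⟨hsd, h2⟩
  · exact ExcE7.rel10 hr hs hrs ⟨hrd, h1⟩ ⟨hsd, h2⟩
  · exact ExcE7.rel12 hr hs hrs ⟨hrd, h1⟩ ⟨hsd, h2⟩
  · exact ExcE7.rel14 hr hs hrs ⟨hrd, h1⟩ ⟨hsd, h2⟩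
  · exact ExcE7.rel18 hr hs hrs ⟨hrd, h1⟩ ⟨hsd, h2⟩
  · exact CertE7.rel_2_1 hr hs hrs ⟨hrd, h1⟩ ⟨hsd, h2⟩
  · exact CertE7.rel_3_1 hr hs hrs ⟨hrd, h1⟩ ⟨hsd, h2⟩
  · exact CertE7.rel_3_2 hr hs hrs ⟨hrd, h1⟩ ⟨hsd, h2⟩
  · exact CertE7.rel_4_1 hr hs hrs ⟨hrd, h1⟩ ⟨hsd, h2⟩
  · exact CertE7.rel_4_2 hr hs hrs ⟨hrd, h1⟩ ⟨hsd, h2⟩
  · exact CertE7.rel_4_3 hr hs hrs ⟨hrd, h1⟩ ⟨hsd, h2⟩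
  · exact CertE7.rel_5_1 hr hs hrs ⟨hrd, h1⟩ ⟨hsd, h2⟩
  · exact CertE7.rel_5_2 hr hs hrs ⟨hrd, h1⟩ ⟨hsd, h2⟩
  · exact CertE7.rel_5_3 hr hs hrs ⟨hrd, h1⟩ ⟨hsd, h2⟩
  · exact CertE7.rel_6_1 hr hs hrs ⟨hrd, h1⟩ ⟨hsd, h2⟩
  · exact CertE7.rel_6_2 hr hs hrs ⟨hrd, h1⟩ ⟨hsd, h2⟩
  · exact CertE7.rel_6_3 hr hs hrs ⟨hrd, h1⟩ ⟨hsd, h2⟩
  · exact CertE7.rel_6_4 hr hs hrs ⟨hrd, h1⟩ ⟨hsd, h2⟩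
  · exact CertE7.rel_7_1 hr hs hrs ⟨hrd, h1⟩ ⟨hsd, h2⟩
  · exact CertE7.rel_8_1 hr hs hrs ⟨hrd, h1⟩ ⟨hsd, h2⟩
  · exact CertE7.rel_8_2 hr hs hrs ⟨hrd, h1⟩ ⟨hsd, h2⟩
  · exact CertE7.rel_8_4 hr hs hrs ⟨hrd, h1⟩ ⟨hsd, h2⟩
  · exact CertE7.rel_9_1 hr hs hrs ⟨hrd, h1⟩ ⟨hsd, h2⟩
  · exact CertE7.rel_10_1 hr hs hrs ⟨hrd, h1⟩ ⟨hsd, h2⟩
  · exact CertE7.rel_10_2 hr hs hrs ⟨hrd, h1⟩ ⟨hsd, h2⟩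
  · exact CertE7.rel_10_6 hr hs hrs ⟨hrd, h1⟩ ⟨hsd, h2⟩
  · exact CertE7.rel_12_1 hr hs hrs ⟨hrd, h1⟩ ⟨hsd, h2⟩
  · exact CertE7.rel_12_2 hr hs hrs ⟨hrd, h1⟩ ⟨hsd, h2⟩
  · exact CertE7.rel_12_3 hr hs hrs ⟨hrd, h1⟩ ⟨hsd, h2⟩
  · exact CertE7.rel_12_6 hr hs hrs ⟨hrd, h1⟩ ⟨hsd, h2⟩
  · exact CertE7.rel_14_2 hr hs hrs ⟨hrd, h1⟩ ⟨hsd, h2⟩
  · exact CertE7.rel_18_2 hr hs hrs ⟨hrd, h1⟩ ⟨hsd, h2⟩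

/-- **Adjacent classes of `E7(q)`.** -/
theorem rel7 {F : Type u} [Field F] [Finite F] {r s : ℕ} (hr : r.Prime) (hs : s.Prime) (hrs : r ≠ s) (hrd : ¬ r ∣ 2) (hsd : ¬ s ∣ 2)
    {a b : ℕ} (h : (a, b) ∈ L7 ∨ (b, a) ∈ L7) (h1 : (r : ℤ) ∣ cyc a (Nat.card F))
    (h2 : (s : ℤ) ∣ cyc b (Nat.card F)) : PG.Rel ↥(chevE7.group F) r s := by
  rcases h with h | h
  · exact rel7_le hr hs hrs hrd hsd h h1 h2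
  · exact (rel7_le hs hr hrs.symm hsd hrd h h2 h1).symm

/-- **Classes of `E7(q)` adjacent to the characteristic.** -/
theorem relp7 {F : Type u} [Field F] [Finite F] {r s : ℕ} (hr : r.Prime) (hs : s.Prime) (hrd : ¬ r ∣ 2)
    {a : ℕ} (h : a ∈ P7) (h1 : (r : ℤ) ∣ cyc a (Nat.card F)) (h2 : s ∣ Nat.card F) :
    PG.Rel ↥(chevE7.group F) r s := by
  simp only [P7, List.mem_cons, List.not_mem_nil, or_false] at h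
  rcases h with rfl | rfl | rfl | rfl | rfl | rfl | rfl | rfl | rfl
  · exact CertE7.rel_1_p hr hs ⟨hrd, h1⟩ h2
  · exact CertE7.rel_2_p hr hs ⟨hrd, h1⟩ h2
  · exact CertE7.rel_3_p hr hs ⟨hrd, h1⟩ h2
  · exact CertE7.rel_4_p hr hs ⟨hrd, h1⟩ h2
  · exact CertE7.rel_5_p hr hs ⟨hrd, h1⟩ h2
  · exact CertE7.rel_6_p hr hs ⟨hrd, h1⟩ h2
  · exact CertE7.rel_8_p hr hs ⟨hrd, h1⟩ h2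
  · exact CertE7.rel_10_p hr hs ⟨hrd, h1⟩ h2
  · exact CertE7.rel_12_p hr hs ⟨hrd, h1⟩ h2

end Cfsg.Agent.R2.Spec.EE.CertTab
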