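import Cfsg.Agent.R2.Spec.EE.CertE6A
import Cfsg.Agent.R2.Spec.EE.CertE6P
import Cfsg.Agent.R2.Spec.EE.CertF4A
import Cfsg.Agent.R2.Spec.EE.CertF4P
import Cfsg.Agent.R2.Spec.EE.CertG2A
import Cfsg.Agent.R2.Spec.EE.CertG2P
import Cfsg.Agent.R2.Spec.EE.CertTE6A
import Cfsg.Agent.R2.Spec.EE.CertTE6P
import Cfsg.Agent.R2.Spec.EE.CertTD4A
import Cfsg.Agent.R2.Spec.EE.CertTD4P
import Cfsg.Agent.R2.Spec.EE.CertTab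

/-!
# Tables of the adjacent classes, types E6, F4, G2, ²E6, ³D4 (helper2)

* `rel6`, `relF4`, `relG2`, `relTE6`, `relTD4` : the pairs of classes in `L6`, ... are adjacent (equal classes too);
* `relp6`, ... : the classes `P6`, ... are adjacent to the characteristic.
-/

set_option autoImplicit false

namespace Cfsg.Agent.R2.Spec.EE.CertTab

open Cfsg Cfsg.Lie Cfsg.Lie.ChevalleyDatum Cfsg.Agent Cfsg.Agent.H493 Cfsg.Agent.H493.PGTorus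
  Cfsg.Agent.H493.PGCyc Cfsg.Agent.H168.ExcAdj Cfsg.Agent.H168

universe u

/-- a prime dividing the value is prime to `q` -/
theorem pv_nd {f : ℕ} {c : Fin (f + 1) → ℤ} (hc : c 0 = 1 ∨ c 0 = -1) {q r : ℕ} (hr : r.Prime)
    (h : (r : ℤ) ∣ pv c (q : ℤ)) : ¬ r ∣ q := by
  intro h0
  have h1 : (r : ℤ) ∣ (q : ℤ) := Int.natCast_dvd_natCast.2 h0
  unfold pv at h
  rw [Fin.sum_univ_succ] at h
  have h2 : (r : ℤ) ∣ c 0 := by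
    have h3 : (r : ℤ) ∣ (q : ℤ) ^ (f + 1) := dvd_pow h1 (Nat.succ_ne_zero f)
    have h4 : (r : ℤ) ∣ ∑ i : Fin f, c i.succ * (q : ℤ) ^ ((i.succ : Fin (f + 1)) : ℕ) := by
      refine Finset.dvd_sum fun i _ => ?_
      exact dvd_mul_of_dvd_right (dvd_pow h1 (by simp)) _
    have h5 := (Int.dvd_add_right h3).1 h
    have h6 := (Int.dvd_add_left h4).1 h5
    simpa using h6
  have h7 : (r : ℤ) ∣ 1 := by
    rcases hc with h0 | h0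
    · rwa [h0] at h2
    · rw [h0] at h2
      exact (Int.dvd_neg).1 h2
  have h8 := Int.natCast_dvd_natCast.mp (by simpa using h7 : (r : ℤ) ∣ ((1 : ℕ) : ℤ))
  exact hr.one_lt.ne' (Nat.dvd_one.mp h8)

/-- the adjacent classes of type E6 -/
def L6 : List (ℕ × ℕ) := [
    (1, 1), (2, 1), (2, 2), (3, 1), (3, 2), (3, 3), (4, 1), (4, 2), (4, 4), (5, 1), (5, 2), (5, 5),
    (6, 1), (6, 2), (6, 3), (6, 4), (6, 6), (8, 1), (8, 2), (8, 8), (9, 9), (12, 3), (12, 12)]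

/-- the classes of type E6 adjacent to the characteristic -/
def P6 : List ℕ := [1, 2, 3, 4, 5, 6]

theorem rel6_le {F : Type u} [Field F] [Finite F] {r s : ℕ} (hr : r.Prime) (hs : s.Prime) (hrs : r ≠ s)
    (hrd : ¬ r ∣ 3) (hsd : ¬ s ∣ 3) {a b : ℕ} (h : (a, b) ∈ L6) (h1 : (r : ℤ) ∣ cyc a (Nat.card F))
    (h2 : (s : ℤ) ∣ cyc b (Nat.card F)) : PG.Rel ↥(chevE6.group F) r s := by
  simp only [L6, List.mem_cons, Prod.mk.injEq, List.not_mem_nil, or_false] at h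
  rcases h with ⟨rfl, rfl⟩ | ⟨rfl, rfl⟩ | ⟨rfl, rfl⟩ | ⟨rfl, rfl⟩ | ⟨rfl, rfl⟩ | ⟨rfl, rfl⟩ | ⟨rfl, rfl⟩ |
    ⟨rfl, rfl⟩ | ⟨rfl, rfl⟩ | ⟨rfl, rfl⟩ | ⟨rfl, rfl⟩ | ⟨rfl, rfl⟩ | ⟨rfl, rfl⟩ | ⟨rfl, rfl⟩ | ⟨rfl, rfl⟩ |
    ⟨rfl, rfl⟩ | ⟨rfl, rfl⟩ | ⟨rfl, rfl⟩ | ⟨rfl, rfl⟩ | ⟨rfl, rfl⟩ | ⟨rfl, rfl⟩ | ⟨rfl, rfl⟩ | ⟨rfl, rfl⟩
  · exact CertE6.rel_1_1 hr hs hrs ⟨hrd, h1⟩ ⟨hsd, h2⟩
  · exact CertE6.rel_2_1 hr hs hrs ⟨hrd, h1⟩ ⟨hsd, h2⟩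
  · exact CertE6.rel_2_2 hr hs hrs ⟨hrd, h1⟩ ⟨hsd, h2⟩
  · exact CertE6.rel_3_1 hr hs hrs ⟨hrd, h1⟩ ⟨hsd, h2⟩
  · exact CertE6.rel_3_2 hr hs hrs ⟨hrd, h1⟩ ⟨hsd, h2⟩
  · exact CertE6.rel_3_3 hr hs hrs ⟨hrd, h1⟩ ⟨hsd, h2⟩
  · exact CertE6.rel_4_1 hr hs hrs ⟨hrd, h1⟩ ⟨hsd, h2⟩
  · exact CertE6.rel_4_2 hr hs hrs ⟨hrd, h1⟩ ⟨hsd, h2⟩
  · exact CertE6.rel_4_4 hr hs hrs ⟨hrd, h1⟩ ⟨hsd, h2⟩
  · exact CertE6.rel_5_1 hr hs hrs ⟨hrd, h1⟩ ⟨hsd, h2⟩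
  · exact CertE6.rel_5_2 hr hs hrs ⟨hrd, h1⟩ ⟨hsd, h2⟩
  · exact CertE6.rel_5_5 hr hs hrs ⟨hrd, h1⟩ ⟨hsd, h2⟩
  · exact CertE6.rel_6_1 hr hs hrs ⟨hrd, h1⟩ ⟨hsd, h2⟩
  · exact CertE6.rel_6_2 hr hs hrs ⟨hrd, h1⟩ ⟨hsd, h2⟩
  · exact CertE6.rel_6_3 hr hs hrs ⟨hrd, h1⟩ ⟨hsd, h2⟩
  · exact CertE6.rel_6_4 hr hs hrs ⟨hrd, h1⟩ ⟨hsd, h2⟩
  · exact CertE6.rel_6_6 hr hs hrs ⟨hrd, h1⟩ ⟨hsd, h2⟩
  · exact CertE6.rel_8_1 hr hs hrs ⟨hrd, h1⟩ ⟨hsd, h2⟩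
  · exact CertE6.rel_8_2 hr hs hrs ⟨hrd, h1⟩ ⟨hsd, h2⟩
  · exact CertE6.rel_8_8 hr hs hrs ⟨hrd, h1⟩ ⟨hsd, h2⟩
  · exact CertE6.rel_9_9 hr hs hrs ⟨hrd, h1⟩ ⟨hsd, h2⟩
  · exact CertE6.rel_12_3 hr hs hrs ⟨hrd, h1⟩ ⟨hsd, h2⟩
  · exact CertE6.rel_12_12 hr hs hrs ⟨hrd, h1⟩ ⟨hsd, h2⟩

/-- **Adjacent classes, type E6.** -/
theorem rel6 {F : Type u} [Field F] [Finite F] {r s : ℕ} (hr : r.Prime) (hs : s.Prime) (hrs : r ≠ s) (hrd : ¬ r ∣ 3) (hsd : ¬ s ∣ 3)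
    {a b : ℕ} (h : (a, b) ∈ L6 ∨ (b, a) ∈ L6) (h1 : (r : ℤ) ∣ cyc a (Nat.card F))
    (h2 : (s : ℤ) ∣ cyc b (Nat.card F)) : PG.Rel ↥(chevE6.group F) r s := by
  rcases h with h | h
  · exact rel6_le hr hs hrs hrd hsd h h1 h2
  · exact (rel6_le hs hr hrs.symm hsd hrd h h2 h1).symm

/-- **Classes adjacent to the characteristic, type E6.** -/
theorem relp6 {F : Type u} [Field F] [Finite F] {r s : ℕ} (hr : r.Prime) (hs : s.Prime) (hrd : ¬ r ∣ 3)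
    {a : ℕ} (h : a ∈ P6) (h1 : (r : ℤ) ∣ cyc a (Nat.card F)) (h2 : s ∣ Nat.card F) :
    PG.Rel ↥(chevE6.group F) r s := by
  simp only [P6, List.mem_cons, List.not_mem_nil, or_false] at h
  rcases h with rfl | rfl | rfl | rfl | rfl | rfl
  · exact CertE6.rel_1_p hr hs ⟨hrd, h1⟩ h2
  · exact CertE6.rel_2_p hr hs ⟨hrd, h1⟩ h2
  · exact CertE6.rel_3_p hr hs ⟨hrd, h1⟩ h2
  · exact CertE6.rel_4_p hr hs ⟨hrd, h1⟩ h2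
  · exact CertE6.rel_5_p hr hs ⟨hrd, h1⟩ h2
  · exact CertE6.rel_6_p hr hs ⟨hrd, h1⟩ h2

/-- the adjacent classes of type F4 -/
def LF4 : List (ℕ × ℕ) := [
    (1, 1), (2, 1), (2, 2), (3, 1), (3, 2), (3, 3), (4, 1), (4, 2), (4, 4), (6, 1), (6, 2), (6, 6),
    (8, 8), (12, 12)]

/-- the classes of type F4 adjacent to the characteristic -/
def PF4 : List ℕ := [1, 2, 3, 4, 6]

theorem relF4_le {F : Type u} [Field F] [Finite F] {r s : ℕ} (hr : r.Prime) (hs : s.Prime) (hrs : r ≠ s)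
    (hrd : ¬ r ∣ 1) (hsd : ¬ s ∣ 1) {a b : ℕ} (h : (a, b) ∈ LF4) (h1 : (r : ℤ) ∣ cyc a (Nat.card F))
    (h2 : (s : ℤ) ∣ cyc b (Nat.card F)) : PG.Rel ↥(chevF4.group F) r s := by
  simp only [LF4, List.mem_cons, Prod.mk.injEq, List.not_mem_nil, or_false] at h
  rcases h with ⟨rfl, rfl⟩ | ⟨rfl, rfl⟩ | ⟨rfl, rfl⟩ | ⟨rfl, rfl⟩ | ⟨rfl, rfl⟩ | ⟨rfl, rfl⟩ | ⟨rfl, rfl⟩ |
    ⟨rfl, rfl⟩ | ⟨rfl, rfl⟩ | ⟨rfl, rfl⟩ | ⟨rfl, rfl⟩ | ⟨rfl, rfl⟩ | ⟨rfl, rfl⟩ | ⟨rfl, rfl⟩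
  · exact CertF4.rel_1_1 hr hs hrs ⟨hrd, h1⟩ ⟨hsd, h2⟩
  · exact CertF4.rel_2_1 hr hs hrs ⟨hrd, h1⟩ ⟨hsd, h2⟩
  · exact CertF4.rel_2_2 hr hs hrs ⟨hrd, h1⟩ ⟨hsd, h2⟩
  · exact CertF4.rel_3_1 hr hs hrs ⟨hrd, h1⟩ ⟨hsd, h2⟩
  · exact CertF4.rel_3_2 hr hs hrs ⟨hrd, h1⟩ ⟨hsd, h2⟩
  · exact CertF4.rel_3_3 hr hs hrs ⟨hrd, h1⟩ ⟨hsd, h2⟩
  · exact CertF4.rel_4_1 hr hs hrs ⟨hrd, h1⟩ ⟨hsd, h2⟩
  · exact CertF4.rel_4_2 hr hs hrs ⟨hrd, h1⟩ ⟨hsd, h2⟩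
  · exact CertF4.rel_4_4 hr hs hrs ⟨hrd, h1⟩ ⟨hsd, h2⟩
  · exact CertF4.rel_6_1 hr hs hrs ⟨hrd, h1⟩ ⟨hsd, h2⟩
  · exact CertF4.rel_6_2 hr hs hrs ⟨hrd, h1⟩ ⟨hsd, h2⟩
  · exact CertF4.rel_6_6 hr hs hrs ⟨hrd, h1⟩ ⟨hsd, h2⟩
  · exact CertF4.rel_8_8 hr hs hrs ⟨hrd, h1⟩ ⟨hsd, h2⟩
  · exact CertF4.rel_12_12 hr hs hrs ⟨hrd, h1⟩ ⟨hsd, h2⟩

/-- **Adjacent classes, type F4.** -/
theorem relF4 {F : Type u} [Field F] [Finite F] {r s : ℕ} (hr : r.Prime) (hs : s.Prime) (hrs : r ≠ s)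
    {a b : ℕ} (h : (a, b) ∈ LF4 ∨ (b, a) ∈ LF4) (h1 : (r : ℤ) ∣ cyc a (Nat.card F))
    (h2 : (s : ℤ) ∣ cyc b (Nat.card F)) : PG.Rel ↥(chevF4.group F) r s := by
  have hrd : ¬ r ∣ 1 := fun h => hr.one_lt.ne' (Nat.dvd_one.1 h)
  have hsd : ¬ s ∣ 1 := fun h => hs.one_lt.ne' (Nat.dvd_one.1 h)
  rcases h with h | h
  · exact relF4_le hr hs hrs hrd hsd h h1 h2
  · exact (relF4_le hs hr hrs.symm hsd hrd h h2 h1).symm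

/-- **Classes adjacent to the characteristic, type F4.** -/
theorem relpF4 {F : Type u} [Field F] [Finite F] {r s : ℕ} (hr : r.Prime) (hs : s.Prime)
    {a : ℕ} (h : a ∈ PF4) (h1 : (r : ℤ) ∣ cyc a (Nat.card F)) (h2 : s ∣ Nat.card F) :
    PG.Rel ↥(chevF4.group F) r s := by
  have hrd : ¬ r ∣ 1 := fun h => hr.one_lt.ne' (Nat.dvd_one.1 h)
  simp only [PF4, List.mem_cons, List.not_mem_nil, or_false] at h
  rcases h with rfl | rfl | rfl | rfl | rfl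
  · exact CertF4.rel_1_p hr hs ⟨hrd, h1⟩ h2
  · exact CertF4.rel_2_p hr hs ⟨hrd, h1⟩ h2
  · exact CertF4.rel_3_p hr hs ⟨hrd, h1⟩ h2
  · exact CertF4.rel_4_p hr hs ⟨hrd, h1⟩ h2
  · exact CertF4.rel_6_p hr hs ⟨hrd, h1⟩ h2

/-- the adjacent classes of type G2 -/
def LG2 : List (ℕ × ℕ) := [
    (1, 1), (2, 1), (2, 2), (3, 3), (6, 6)]

/-- the classes of type G2 adjacent to the characteristic -/
def PG2 : List ℕ := [1, 2]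

theorem relG2_le {F : Type u} [Field F] [Finite F] {r s : ℕ} (hr : r.Prime) (hs : s.Prime) (hrs : r ≠ s)
    (hrd : ¬ r ∣ 1) (hsd : ¬ s ∣ 1) {a b : ℕ} (h : (a, b) ∈ LG2) (h1 : (r : ℤ) ∣ cyc a (Nat.card F))
    (h2 : (s : ℤ) ∣ cyc b (Nat.card F)) : PG.Rel ↥(chevG2.group F) r s := by
  simp only [LG2, List.mem_cons, Prod.mk.injEq, List.not_mem_nil, or_false] at h
  rcases h with ⟨rfl, rfl⟩ | ⟨rfl, rfl⟩ | ⟨rfl, rfl⟩ | ⟨rfl, rfl⟩ | ⟨rfl, rfl⟩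
  · exact CertG2.rel_1_1 hr hs hrs ⟨hrd, h1⟩ ⟨hsd, h2⟩
  · exact CertG2.rel_2_1 hr hs hrs ⟨hrd, h1⟩ ⟨hsd, h2⟩
  · exact CertG2.rel_2_2 hr hs hrs ⟨hrd, h1⟩ ⟨hsd, h2⟩
  · exact CertG2.rel_3_3 hr hs hrs ⟨hrd, h1⟩ ⟨hsd, h2⟩
  · exact CertG2.rel_6_6 hr hs hrs ⟨hrd, h1⟩ ⟨hsd, h2⟩

/-- **Adjacent classes, type G2.** -/
theorem relG2 {F : Type u} [Field F] [Finite F] {r s : ℕ} (hr : r.Prime) (hs : s.Prime) (hrs : r ≠ s)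
    {a b : ℕ} (h : (a, b) ∈ LG2 ∨ (b, a) ∈ LG2) (h1 : (r : ℤ) ∣ cyc a (Nat.card F))
    (h2 : (s : ℤ) ∣ cyc b (Nat.card F)) : PG.Rel ↥(chevG2.group F) r s := by
  have hrd : ¬ r ∣ 1 := fun h => hr.one_lt.ne' (Nat.dvd_one.1 h)
  have hsd : ¬ s ∣ 1 := fun h => hs.one_lt.ne' (Nat.dvd_one.1 h)
  rcases h with h | h
  · exact relG2_le hr hs hrs hrd hsd h h1 h2
  · exact (relG2_le hs hr hrs.symm hsd hrd h h2 h1).symm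

/-- **Classes adjacent to the characteristic, type G2.** -/
theorem relpG2 {F : Type u} [Field F] [Finite F] {r s : ℕ} (hr : r.Prime) (hs : s.Prime)
    {a : ℕ} (h : a ∈ PG2) (h1 : (r : ℤ) ∣ cyc a (Nat.card F)) (h2 : s ∣ Nat.card F) :
    PG.Rel ↥(chevG2.group F) r s := by
  have hrd : ¬ r ∣ 1 := fun h => hr.one_lt.ne' (Nat.dvd_one.1 h)
  simp only [PG2, List.mem_cons, List.not_mem_nil, or_false] at h
  rcases h with rfl | rfl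
  · exact CertG2.rel_1_p hr hs ⟨hrd, h1⟩ h2
  · exact CertG2.rel_2_p hr hs ⟨hrd, h1⟩ h2

/-- the adjacent classes of type TE6 -/
def LTE6 : List (ℕ × ℕ) := [
    (1, 1), (2, 1), (2, 2), (3, 1), (3, 2), (3, 3), (4, 1), (4, 2), (4, 3), (4, 4), (6, 1), (6, 2),
    (6, 3), (6, 6), (8, 1), (8, 2), (8, 8), (10, 1), (10, 2), (10, 10), (12, 6), (12, 12), (18, 18)]

/-- the classes of type TE6 adjacent to the characteristic -/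
def PTE6 : List ℕ := [1, 2, 3, 4, 6, 10]

theorem relTE6_le {F : Type u} [Field F] [Fintype F] {q : ℕ} (hq : IsPrimePow q) (hF : Fintype.card F = q ^ 2) {r s : ℕ}
    (hr : r.Prime) (hs : s.Prime) (hrs : r ≠ s) (hr3 : r ≠ 3) (hs3 : s ≠ 3) {a b : ℕ} (h : (a, b) ∈ LTE6)
    (h1 : (r : ℤ) ∣ cyc a q) (h2 : (s : ℤ) ∣ cyc b q) : PG.Rel ↥(twistedE6 F q) r s := by
  simp only [LTE6, List.mem_cons, Prod.mk.injEq, List.not_mem_nil, or_false] at h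
  rcases h with ⟨rfl, rfl⟩ | ⟨rfl, rfl⟩ | ⟨rfl, rfl⟩ | ⟨rfl, rfl⟩ | ⟨rfl, rfl⟩ | ⟨rfl, rfl⟩ | ⟨rfl, rfl⟩ |
    ⟨rfl, rfl⟩ | ⟨rfl, rfl⟩ | ⟨rfl, rfl⟩ | ⟨rfl, rfl⟩ | ⟨rfl, rfl⟩ | ⟨rfl, rfl⟩ | ⟨rfl, rfl⟩ | ⟨rfl, rfl⟩ |
    ⟨rfl, rfl⟩ | ⟨rfl, rfl⟩ | ⟨rfl, rfl⟩ | ⟨rfl, rfl⟩ | ⟨rfl, rfl⟩ | ⟨rfl, rfl⟩ | ⟨rfl, rfl⟩ | ⟨rfl, rfl⟩
  · exact CertTE6.rel_1_1 hq hF hr hs hrs ⟨(pv_nd (Or.inr (by decide +kernel)) hr h1), hr3, h1⟩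
      ⟨(pv_nd (Or.inr (by decide +kernel)) hs h2), hs3, h2⟩
  · exact CertTE6.rel_2_1 hq hF hr hs hrs ⟨(pv_nd (Or.inl (by decide +kernel)) hr h1), hr3, h1⟩
      ⟨(pv_nd (Or.inr (by decide +kernel)) hs h2), hs3, h2⟩
  · exact CertTE6.rel_2_2 hq hF hr hs hrs ⟨(pv_nd (Or.inl (by decide +kernel)) hr h1), hr3, h1⟩
      ⟨(pv_nd (Or.inl (by decide +kernel)) hs h2), hs3, h2⟩
  · exact CertTE6.rel_3_1 hq hF hr hs hrs ⟨(pv_nd (Or.inl (by decide +kernel)) hr h1), hr3, h1⟩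
      ⟨(pv_nd (Or.inr (by decide +kernel)) hs h2), hs3, h2⟩
  · exact CertTE6.rel_3_2 hq hF hr hs hrs ⟨(pv_nd (Or.inl (by decide +kernel)) hr h1), hr3, h1⟩
      ⟨(pv_nd (Or.inl (by decide +kernel)) hs h2), hs3, h2⟩
  · exact CertTE6.rel_3_3 hq hF hr hs hrs ⟨(pv_nd (Or.inl (by decide +kernel)) hr h1), hr3, h1⟩
      ⟨(pv_nd (Or.inl (by decide +kernel)) hs h2), hs3, h2⟩
  · exact CertTE6.rel_4_1 hq hF hr hs hrs ⟨(pv_nd (Or.inl (by decide +kernel)) hr h1), hr3, h1⟩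
      ⟨(pv_nd (Or.inr (by decide +kernel)) hs h2), hs3, h2⟩
  · exact CertTE6.rel_4_2 hq hF hr hs hrs ⟨(pv_nd (Or.inl (by decide +kernel)) hr h1), hr3, h1⟩
      ⟨(pv_nd (Or.inl (by decide +kernel)) hs h2), hs3, h2⟩
  · exact CertTE6.rel_4_3 hq hF hr hs hrs ⟨(pv_nd (Or.inl (by decide +kernel)) hr h1), hr3, h1⟩
      ⟨(pv_nd (Or.inl (by decide +kernel)) hs h2), hs3, h2⟩
  · exact CertTE6.rel_4_4 hq hF hr hs hrs ⟨(pv_nd (Or.inl (by decide +kernel)) hr h1), hr3, h1⟩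
      ⟨(pv_nd (Or.inl (by decide +kernel)) hs h2), hs3, h2⟩
  · exact CertTE6.rel_6_1 hq hF hr hs hrs ⟨(pv_nd (Or.inl (by decide +kernel)) hr h1), hr3, h1⟩
      ⟨(pv_nd (Or.inr (by decide +kernel)) hs h2), hs3, h2⟩
  · exact CertTE6.rel_6_2 hq hF hr hs hrs ⟨(pv_nd (Or.inl (by decide +kernel)) hr h1), hr3, h1⟩
      ⟨(pv_nd (Or.inl (by decide +kernel)) hs h2), hs3, h2⟩
  · exact CertTE6.rel_6_3 hq hF hr hs hrs ⟨(pv_nd (Or.inl (by decide +kernel)) hr h1), hr3, h1⟩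
      ⟨(pv_nd (Or.inl (by decide +kernel)) hs h2), hs3, h2⟩
  · exact CertTE6.rel_6_6 hq hF hr hs hrs ⟨(pv_nd (Or.inl (by decide +kernel)) hr h1), hr3, h1⟩
      ⟨(pv_nd (Or.inl (by decide +kernel)) hs h2), hs3, h2⟩
  · exact CertTE6.rel_8_1 hq hF hr hs hrs ⟨(pv_nd (Or.inl (by decide +kernel)) hr h1), hr3, h1⟩
      ⟨(pv_nd (Or.inr (by decide +kernel)) hs h2), hs3, h2⟩
  · exact CertTE6.rel_8_2 hq hF hr hs hrs ⟨(pv_nd (Or.inl (by decide +kernel)) hr h1), hr3, h1⟩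
      ⟨(pv_nd (Or.inl (by decide +kernel)) hs h2), hs3, h2⟩
  · exact CertTE6.rel_8_8 hq hF hr hs hrs ⟨(pv_nd (Or.inl (by decide +kernel)) hr h1), hr3, h1⟩
      ⟨(pv_nd (Or.inl (by decide +kernel)) hs h2), hs3, h2⟩
  · exact CertTE6.rel_10_1 hq hF hr hs hrs ⟨(pv_nd (Or.inl (by decide +kernel)) hr h1), hr3, h1⟩
      ⟨(pv_nd (Or.inr (by decide +kernel)) hs h2), hs3, h2⟩
  · exact CertTE6.rel_10_2 hq hF hr hs hrs ⟨(pv_nd (Or.inl (by decide +kernel)) hr h1), hr3, h1⟩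
      ⟨(pv_nd (Or.inl (by decide +kernel)) hs h2), hs3, h2⟩
  · exact CertTE6.rel_10_10 hq hF hr hs hrs ⟨(pv_nd (Or.inl (by decide +kernel)) hr h1), hr3, h1⟩
      ⟨(pv_nd (Or.inl (by decide +kernel)) hs h2), hs3, h2⟩
  · exact CertTE6.rel_12_6 hq hF hr hs hrs ⟨(pv_nd (Or.inl (by decide +kernel)) hr h1), hr3, h1⟩
      ⟨(pv_nd (Or.inl (by decide +kernel)) hs h2), hs3, h2⟩
  · exact CertTE6.rel_12_12 hq hF hr hs hrs ⟨(pv_nd (Or.inl (by decide +kernel)) hr h1), hr3, h1⟩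
      ⟨(pv_nd (Or.inl (by decide +kernel)) hs h2), hs3, h2⟩
  · exact CertTE6.rel_18_18 hq hF hr hs hrs ⟨(pv_nd (Or.inl (by decide +kernel)) hr h1), hr3, h1⟩
      ⟨(pv_nd (Or.inl (by decide +kernel)) hs h2), hs3, h2⟩

/-- **Adjacent classes, type TE6.** -/
theorem relTE6 {F : Type u} [Field F] [Fintype F] {q : ℕ} (hq : IsPrimePow q) (hF : Fintype.card F = q ^ 2) {r s : ℕ}
    (hr : r.Prime) (hs : s.Prime) (hrs : r ≠ s) (hr3 : r ≠ 3) (hs3 : s ≠ 3) {a b : ℕ} (h : (a, b) ∈ LTE6 ∨ (b, a) ∈ LTE6)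
    (h1 : (r : ℤ) ∣ cyc a q) (h2 : (s : ℤ) ∣ cyc b q) : PG.Rel ↥(twistedE6 F q) r s := by
  rcases h with h | h
  · exact relTE6_le hq hF hr hs hrs hr3 hs3 h h1 h2
  · exact (relTE6_le hq hF hs hr hrs.symm hs3 hr3 h h2 h1).symm

/-- **Classes adjacent to the characteristic, type TE6.** -/
theorem relpTE6 {F : Type u} [Field F] [Fintype F] {q : ℕ} (hq : IsPrimePow q) (hF : Fintype.card F = q ^ 2) {r s : ℕ}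
    (hr : r.Prime) (hs : s.Prime) (hr3 : r ≠ 3) {a : ℕ} (h : a ∈ PTE6)
    (h1 : (r : ℤ) ∣ cyc a q) (h2 : s ∣ q) : PG.Rel ↥(twistedE6 F q) r s := by
  simp only [PTE6, List.mem_cons, List.not_mem_nil, or_false] at h
  rcases h with rfl | rfl | rfl | rfl | rfl | rfl
  · exact CertTE6.rel_1_p hq hF hr hs hr3 h1 h2
  · exact CertTE6.rel_2_p hq hF hr hs hr3 h1 h2
  · exact CertTE6.rel_3_p hq hF hr hs hr3 h1 h2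
  · exact CertTE6.rel_4_p hq hF hr hs hr3 h1 h2
  · exact CertTE6.rel_6_p hq hF hr hs hr3 h1 h2
  · exact CertTE6.rel_10_p hq hF hr hs hr3 h1 h2

/-- the adjacent classes of type TD4 -/
def LTD4 : List (ℕ × ℕ) := [
    (1, 1), (2, 1), (2, 2), (3, 1), (3, 2), (3, 3), (6, 1), (6, 2), (6, 6), (12, 12)]

/-- the classes of type TD4 adjacent to the characteristic -/
def PTD4 : List ℕ := [1, 2, 3, 6]

theorem relTD4_le {F : Type u} [Field F] [Fintype F] {q : ℕ} (hq : IsPrimePow q) (hF : Fintype.card F = q ^ 3) {r s : ℕ}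
    (hr : r.Prime) (hs : s.Prime) (hrs : r ≠ s) {a b : ℕ} (h : (a, b) ∈ LTD4)
    (h1 : (r : ℤ) ∣ cyc a q) (h2 : (s : ℤ) ∣ cyc b q) : PG.Rel ↥(twistedD4 F q) r s := by
  simp only [LTD4, List.mem_cons, Prod.mk.injEq, List.not_mem_nil, or_false] at h
  rcases h with ⟨rfl, rfl⟩ | ⟨rfl, rfl⟩ | ⟨rfl, rfl⟩ | ⟨rfl, rfl⟩ | ⟨rfl, rfl⟩ | ⟨rfl, rfl⟩ | ⟨rfl, rfl⟩ |
    ⟨rfl, rfl⟩ | ⟨rfl, rfl⟩ | ⟨rfl, rfl⟩
  · exact CertTD4.rel_1_1 hq hF hr hs hrs (pv_nd (Or.inr (by decide +kernel)) hr h1)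
      (pv_nd (Or.inr (by decide +kernel)) hs h2) h1 h2
  · exact CertTD4.rel_2_1 hq hF hr hs hrs (pv_nd (Or.inl (by decide +kernel)) hr h1)
      (pv_nd (Or.inr (by decide +kernel)) hs h2) h1 h2
  · exact CertTD4.rel_2_2 hq hF hr hs hrs (pv_nd (Or.inl (by decide +kernel)) hr h1)
      (pv_nd (Or.inl (by decide +kernel)) hs h2) h1 h2
  · exact CertTD4.rel_3_1 hq hF hr hs hrs (pv_nd (Or.inl (by decide +kernel)) hr h1)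
      (pv_nd (Or.inr (by decide +kernel)) hs h2) h1 h2
  · exact CertTD4.rel_3_2 hq hF hr hs hrs (pv_nd (Or.inl (by decide +kernel)) hr h1)
      (pv_nd (Or.inl (by decide +kernel)) hs h2) h1 h2
  · exact CertTD4.rel_3_3 hq hF hr hs hrs (pv_nd (Or.inl (by decide +kernel)) hr h1)
      (pv_nd (Or.inl (by decide +kernel)) hs h2) h1 h2
  · exact CertTD4.rel_6_1 hq hF hr hs hrs (pv_nd (Or.inl (by decide +kernel)) hr h1)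
      (pv_nd (Or.inr (by decide +kernel)) hs h2) h1 h2
  · exact CertTD4.rel_6_2 hq hF hr hs hrs (pv_nd (Or.inl (by decide +kernel)) hr h1)
      (pv_nd (Or.inl (by decide +kernel)) hs h2) h1 h2
  · exact CertTD4.rel_6_6 hq hF hr hs hrs (pv_nd (Or.inl (by decide +kernel)) hr h1)
      (pv_nd (Or.inl (by decide +kernel)) hs h2) h1 h2
  · exact CertTD4.rel_12_12 hq hF hr hs hrs (pv_nd (Or.inl (by decide +kernel)) hr h1)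
      (pv_nd (Or.inl (by decide +kernel)) hs h2) h1 h2

/-- **Adjacent classes, type TD4.** -/
theorem relTD4 {F : Type u} [Field F] [Fintype F] {q : ℕ} (hq : IsPrimePow q) (hF : Fintype.card F = q ^ 3) {r s : ℕ}
    (hr : r.Prime) (hs : s.Prime) (hrs : r ≠ s) {a b : ℕ} (h : (a, b) ∈ LTD4 ∨ (b, a) ∈ LTD4)
    (h1 : (r : ℤ) ∣ cyc a q) (h2 : (s : ℤ) ∣ cyc b q) : PG.Rel ↥(twistedD4 F q) r s := by
  rcases h with h | h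
  · exact relTD4_le hq hF hr hs hrs  h h1 h2
  · exact (relTD4_le hq hF hs hr hrs.symm  h h2 h1).symm

/-- **Classes adjacent to the characteristic, type TD4.** -/
theorem relpTD4 {F : Type u} [Field F] [Fintype F] {q : ℕ} (hq : IsPrimePow q) (hF : Fintype.card F = q ^ 3) {r s : ℕ}
    (hr : r.Prime) (hs : s.Prime) {a : ℕ} (h : a ∈ PTD4)
    (h1 : (r : ℤ) ∣ cyc a q) (h2 : s ∣ q) : PG.Rel ↥(twistedD4 F q) r s := by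
  simp only [PTD4, List.mem_cons, List.not_mem_nil, or_false] at h
  rcases h with rfl | rfl | rfl | rfl
  · exact CertTD4.rel_1_p hq hF hr hs h1 h2
  · exact CertTD4.rel_2_p hq hF hr hs h1 h2
  · exact CertTD4.rel_3_p hq hF hr hs h1 h2
  · exact CertTD4.rel_6_p hq hF hr hs h1 h2

end Cfsg.Agent.R2.Spec.EE.CertTab
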