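import Mathlib

/-!
# A small constraint solver (helper13)

`Var` : a variable with its relation masks and its domain (bit masks); `Tbl` : masks of the allowed values;
`solve` : forward checking with a choice of the smallest domain; `solve_sound` : `solve = false` excludes solutions.
-/

set_option autoImplicit false

namespace Cfsg.Agent.R2.Spec.EE

/-- a variable: name, mask of the variables of relation 1, mask of the variables of relation 0, domain -/
structure Var where
  id : ℕ
  na : ℕ
  ad : ℕ
  dom : ℕ

/-- the masks of allowed values: `m0`, `m1`, `m2` for the relations 0, 1, 2 -/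
structure Tbl where
  n : ℕ
  m0 : List ℕ
  m1 : List ℕ
  m2 : List ℕ

/-- the mask of allowed values of the variable `y` when `x` has the value `a` -/
def Tbl.mask (T : Tbl) (x : Var) (y a : ℕ) : ℕ :=
  bif x.na.testBit y then T.m1.getD a 0 else bif x.ad.testBit y then T.m0.getD a 0 else T.m2.getD a 0

/-- forward checking -/
def prune (T : Tbl) (x : Var) (a : ℕ) : List Var → Option (List Var)
  | [] => some []
  | y :: l =>
    let d := y.dom &&& T.mask x y.id a
    bif d == 0 then none else (prune T x a l).map fun l' => ⟨y.id, y.na, y.ad, d⟩ :: l'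

/-- number of bits -/
def pop : ℕ → ℕ → ℕ
  | 0, _ => 0
  | k + 1, m => m % 2 + pop k (m / 2)

/-- position of a smallest domain -/
def best (n : ℕ) : List Var → ℕ → ℕ → ℕ → ℕ
  | [], _, bi, _ => bi
  | y :: l, i, bi, bv => let c := pop n y.dom; bif Nat.blt c bv then best n l (i + 1) i c else best n l (i + 1) bi bv

/-- the search; `false` : no solution -/
def solve (T : Tbl) : ℕ → List Var → Bool
  | 0, _ => true
  | _ + 1, [] => true
  | k + 1, y :: l =>
    let i := best T.n (y :: l) 0 0 (T.n + 1)
    match (y :: l)[i]? with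
    | none => true
    | some x =>
      (List.range T.n).any fun a => x.dom.testBit a &&
        match prune T x a ((y :: l).eraseIdx i) with
        | none => false
        | some l' => solve T k l'

/-- a solution -/
structure Sol (T : Tbl) (f : ℕ → ℕ) (l : List Var) : Prop where
  dom : ∀ x ∈ l, x.dom.testBit (f x.id) = true ∧ f x.id < T.n
  rel : l.Pairwise fun x y => (T.mask x y.id (f x.id)).testBit (f y.id) = true ∧
    (T.mask y x.id (f y.id)).testBit (f x.id) = true

theorem prune_sound (T : Tbl) {f : ℕ → ℕ} {x : Var} : ∀ {l : List Var}, Sol T f l →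
    (∀ y ∈ l, (T.mask x y.id (f x.id)).testBit (f y.id) = true) →
    ∃ l', prune T x (f x.id) l = some l' ∧ Sol T f l' ∧ l'.length = l.length ∧
      ∀ z ∈ l', ∃ y ∈ l, z.id = y.id ∧ z.na = y.na ∧ z.ad = y.ad := by
  intro l
  induction l with
  | nil =>
    intro h _
    exact ⟨[], rfl, h, rfl, by simp⟩
  | cons y l ih =>
    intro h hx
    obtain ⟨l', h1, h2, h3, h4⟩ := ih ⟨fun z hz => h.dom z (List.mem_cons_of_mem _ hz), (List.pairwise_cons.1 h.rel).2⟩
      (fun z hz => hx z (List.mem_cons_of_mem _ hz))
    have hy := hx y List.mem_cons_self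
    have hd := h.dom y List.mem_cons_self
    have hb : (y.dom &&& T.mask x y.id (f x.id)).testBit (f y.id) = true := by
      rw [Nat.testBit_and, hd.1, hy]; rfl
    have hne : ((y.dom &&& T.mask x y.id (f x.id)) == 0) = false := by
      rw [beq_eq_false_iff_ne]
      intro h0
      rw [h0] at hb
      simp at hb
    refine ⟨⟨y.id, y.na, y.ad, y.dom &&& T.mask x y.id (f x.id)⟩ :: l', ?_, ⟨?_, ?_⟩, by simp [h3], ?_⟩
    · simp only [prune, hne, cond_false, h1, Option.map_some]
    · intro z hz
      rcases List.mem_cons.1 hz with rfl | hz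
      · exact ⟨hb, hd.2⟩
      · exact h2.dom z hz
    · rw [List.pairwise_cons]
      refine ⟨fun z hz => ?_, h2.rel⟩
      obtain ⟨z', hz', e1, e2, e3⟩ := h4 z hz
      have h5 := (List.pairwise_cons.1 h.rel).1 z' hz'
      constructor
      · have : T.mask ⟨y.id, y.na, y.ad, y.dom &&& T.mask x y.id (f x.id)⟩ z.id (f y.id) = T.mask y z'.id (f y.id) := by
          simp only [Tbl.mask, e1]
        show (T.mask _ z.id (f y.id)).testBit (f z.id) = true
        rw [this, e1]
        exact h5.1
      · have : T.mask z y.id (f z.id) = T.mask z' y.id (f z'.id) := by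
          simp only [Tbl.mask, e1, e2, e3]
        show (T.mask z y.id (f z.id)).testBit (f y.id) = true
        rw [this]
        exact h5.2
    · intro z hz
      rcases List.mem_cons.1 hz with rfl | hz
      · exact ⟨y, List.mem_cons_self, rfl, rfl, rfl⟩
      · obtain ⟨z', hz', e⟩ := h4 z hz
        exact ⟨z', List.mem_cons_of_mem _ hz', e⟩

theorem Sol.erase {T : Tbl} {f : ℕ → ℕ} {l : List Var} (h : Sol T f l) {i : ℕ} {x : Var} (hi : l[i]? = some x) :
    Sol T f (l.eraseIdx i) ∧ ∀ y ∈ l.eraseIdx i, (T.mask x y.id (f x.id)).testBit (f y.id) = true := by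
  induction l generalizing i with
  | nil => simp at hi
  | cons z l ih =>
    rcases i with _ | i
    · simp only [List.getElem?_cons_zero, Option.some.injEq] at hi
      subst hi
      simp only [List.eraseIdx_cons_zero]
      exact ⟨⟨fun y hy => h.dom y (List.mem_cons_of_mem _ hy), (List.pairwise_cons.1 h.rel).2⟩,
        fun y hy => ((List.pairwise_cons.1 h.rel).1 y hy).1⟩
    · simp only [List.getElem?_cons_succ] at hi
      have h' : Sol T f l := ⟨fun y hy => h.dom y (List.mem_cons_of_mem _ hy), (List.pairwise_cons.1 h.rel).2⟩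
      obtain ⟨h1, h2⟩ := ih h' hi
      simp only [List.eraseIdx_cons_succ]
      have hsub : ∀ y ∈ l.eraseIdx i, y ∈ l := fun y hy => List.mem_of_mem_eraseIdx hy
      refine ⟨⟨fun y hy => ?_, List.pairwise_cons.2 ⟨fun y hy => (List.pairwise_cons.1 h.rel).1 y (hsub y hy), h1.rel⟩⟩,
        fun y hy => ?_⟩
      · rcases List.mem_cons.1 hy with rfl | hy
        · exact h.dom y List.mem_cons_self
        · exact h1.dom y hy
      · rcases List.mem_cons.1 hy with rfl | hy
        · exact ((List.pairwise_cons.1 h.rel).1 x (List.mem_of_getElem? hi)).2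
        · exact h2 y hy

/-- **Soundness.** -/
theorem solve_sound (T : Tbl) : ∀ (k : ℕ) (l : List Var) (f : ℕ → ℕ), Sol T f l → solve T k l = true := by
  intro k
  induction k with
  | zero => intros; rfl
  | succ k ih =>
    intro l f h
    cases l with
    | nil => rfl
    | cons y l =>
      rw [solve]
      set i := best T.n (y :: l) 0 0 (T.n + 1) with hi
      cases hx : (y :: l)[i]? with
      | none => simp only [hx]
      | some x =>
        simp only [hx]
        have hmem : x ∈ y :: l := List.mem_of_getElem? hx
        obtain ⟨h1, h2⟩ := h.erase hx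
        obtain ⟨l', h3, h4, -, -⟩ := prune_sound T h1 h2
        rw [List.any_eq_true]
        refine ⟨f x.id, List.mem_range.2 (h.dom x hmem).2, ?_⟩
        rw [(h.dom x hmem).1, h3]
        simpa using ih l' f h4

end Cfsg.Agent.R2.Spec.EE
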