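import Mathlib

/-!
# Isometries of even unimodular lattices (packet EE-O2)

* `no_exact` : `R` an isometry of an even unimodular lattice: no prime divides `det (1 - R)` exactly once.
-/

set_option autoImplicit false

namespace Cfsg.Agent.R2.Spec.EE.Lat8

open Matrix

variable {n : ℕ}

/-- an endomorphism whose determinant is exactly divisible by `p` -/
theorem exists_tors (N : Module.End ℤ (Fin n → ℤ)) {p : ℕ} (hp : p.Prime) {m : ℤ} (hm : ¬ (p : ℤ) ∣ m)
    (hd : LinearMap.det N = p * m) :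
    ∃ y : Fin n → ℤ, (¬ ∃ v, N v = y) ∧ (∃ w, N w = (p : ℤ) • y) ∧ ∀ g : Fin n → ℤ, ∃ (c : ℤ) (z : Fin n → ℤ),
      m • g = c • y + N z := by
  classical
  have hm0 : m ≠ 0 := fun h => hm (h ▸ dvd_zero _)
  have hd0 : LinearMap.det N ≠ 0 := by
    rw [hd]
    exact mul_ne_zero (by exact_mod_cast hp.ne_zero) hm0
  have hinj : Function.Injective N := by
    rw [injective_iff_map_eq_zero]
    intro x hx
    have h1 : (LinearMap.toMatrix' N) *ᵥ x = 0 := by rw [LinearMap.toMatrix'_mulVec, hx]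
    by_contra hx0
    apply hd0
    rw [← LinearMap.det_toMatrix']
    exact Matrix.exists_mulVec_eq_zero_iff.1 ⟨x, hx0, h1⟩
  have hcard : Nat.card ((Fin n → ℤ) ⧸ LinearMap.range N) = p * m.natAbs := by
    have h1 := Submodule.natAbs_det_equiv (LinearMap.range N) (LinearEquiv.ofInjective N hinj)
    have h2 : (LinearMap.range N).subtype ∘ₗ
        AddMonoidHom.toIntLinearMap ((LinearEquiv.ofInjective N hinj : (Fin n → ℤ) ≃ₗ[ℤ] LinearMap.range N) :
          (Fin n → ℤ) →+ LinearMap.range N) = N := by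
      ext x
      rfl
    rw [h2, hd, Int.natAbs_mul, Int.natAbs_natCast] at h1
    exact h1.symm
  have hfin : Finite ((Fin n → ℤ) ⧸ LinearMap.range N) := Nat.finite_of_card_ne_zero (by
    rw [hcard]
    exact mul_ne_zero hp.ne_zero (Int.natAbs_ne_zero.2 hm0))
  have := Fact.mk hp
  obtain ⟨x, hx⟩ := exists_prime_addOrderOf_dvd_card' (G := (Fin n → ℤ) ⧸ LinearMap.range N) p
    (by rw [hcard]; exact dvd_mul_right _ _)
  obtain ⟨y, rfl⟩ := Submodule.Quotient.mk_surjective _ x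
  have hidx : (AddSubgroup.zmultiples (Submodule.Quotient.mk y : (Fin n → ℤ) ⧸ LinearMap.range N)).index = m.natAbs := by
    have h1 := (AddSubgroup.zmultiples (Submodule.Quotient.mk y : (Fin n → ℤ) ⧸ LinearMap.range N)).card_mul_index
    rw [Nat.card_zmultiples, hx, hcard] at h1
    exact Nat.eq_of_mul_eq_mul_left hp.pos h1
  refine ⟨y, ?_, ?_, ?_⟩
  · rintro ⟨v, hv⟩
    have h1 : (Submodule.Quotient.mk y : (Fin n → ℤ) ⧸ LinearMap.range N) = 0 :=
      (Submodule.Quotient.mk_eq_zero _).2 ⟨v, hv⟩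
    rw [h1, addOrderOf_zero] at hx
    exact hp.one_lt.ne hx
  · have h1 : (p : ℤ) • (Submodule.Quotient.mk y : (Fin n → ℤ) ⧸ LinearMap.range N) = 0 := by
      rw [natCast_zsmul, ← hx]
      exact addOrderOf_nsmul_eq_zero _
    rw [← Submodule.Quotient.mk_smul, Submodule.Quotient.mk_eq_zero] at h1
    exact h1
  · intro g
    have h1 : (m.natAbs : ℤ) • (Submodule.Quotient.mk g : (Fin n → ℤ) ⧸ LinearMap.range N) ∈
        AddSubgroup.zmultiples (Submodule.Quotient.mk y : (Fin n → ℤ) ⧸ LinearMap.range N) := by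
      rw [natCast_zsmul, ← hidx]
      exact AddSubgroup.nsmul_index_mem _ _
    have h2 : m • (Submodule.Quotient.mk g : (Fin n → ℤ) ⧸ LinearMap.range N) ∈
        AddSubgroup.zmultiples (Submodule.Quotient.mk y : (Fin n → ℤ) ⧸ LinearMap.range N) := by
      rcases Int.natAbs_eq m with h | h
      · rw [h]; exact h1
      · rw [h, neg_smul]; exact neg_mem h1
    obtain ⟨c, hc⟩ := AddSubgroup.mem_zmultiples_iff.1 h2
    have h3 : (Submodule.Quotient.mk (m • g - c • y) : (Fin n → ℤ) ⧸ LinearMap.range N) = 0 := by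
      rw [Submodule.Quotient.mk_sub, Submodule.Quotient.mk_smul, Submodule.Quotient.mk_smul, hc, sub_self]
    obtain ⟨z, hz⟩ := (Submodule.Quotient.mk_eq_zero _).1 h3
    exact ⟨c, z, by rw [hz]; abel⟩

/-- **No prime divides `det (1 - R)` exactly once.** -/
theorem no_exact (A : Matrix (Fin n) (Fin n) ℤ) (hA : A.IsSymm)
    (hev : ∀ x : Fin n → ℤ, ∃ t : ℤ, x ⬝ᵥ A *ᵥ x = 2 * t) (B : Matrix (Fin n) (Fin n) ℤ) (hB : B * A = 1)
    (R : Module.End ℤ (Fin n → ℤ)) (hR : ∀ x, R x ⬝ᵥ A *ᵥ R x = x ⬝ᵥ A *ᵥ x)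
    {p : ℕ} (hp : p.Prime) {m : ℤ} (hm : ¬ (p : ℤ) ∣ m) (hd : LinearMap.det (1 - R) = p * m) : False := by
  obtain ⟨y, hy, ⟨w, hw⟩, hg⟩ := exists_tors (1 - R) hp hm hd
  have hp0 : (p : ℤ) ≠ 0 := by exact_mod_cast hp.ne_zero
  let b : (Fin n → ℤ) → (Fin n → ℤ) → ℤ := fun x y => x ⬝ᵥ A *ᵥ y
  have hb : ∀ x y, b x y = x ⬝ᵥ A *ᵥ y := fun _ _ => rfl
  have hsym : ∀ x y, b x y = b y x := by
    intro x y
    rw [hb, hb, Matrix.dotProduct_mulVec, ← Matrix.mulVec_transpose, hA.eq, dotProduct_comm]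
  have hadd : ∀ x y z, b x (y + z) = b x y + b x z := fun x y z => by
    rw [hb, hb, hb, Matrix.mulVec_add, dotProduct_add]
  have hsub : ∀ x y z, b x (y - z) = b x y - b x z := fun x y z => by
    rw [hb, hb, hb, Matrix.mulVec_sub, dotProduct_sub]
  have hsub' : ∀ x y z, b (x - y) z = b x z - b y z := fun x y z => by
    rw [hb, hb, hb, sub_dotProduct]
  have hadd' : ∀ x y z, b (x + y) z = b x z + b y z := fun x y z => by
    rw [hb, hb, hb, add_dotProduct]
  have hsmul : ∀ (c : ℤ) x y, b x (c • y) = c * b x y := fun c x y => by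
    rw [hb, hb, Matrix.mulVec_smul, dotProduct_smul, smul_eq_mul]
  have hsmul' : ∀ (c : ℤ) x y, b (c • x) y = c * b x y := fun c x y => by
    rw [hb, hb, smul_dotProduct, smul_eq_mul]
  have hRR : ∀ x y, b (R x) (R y) = b x y := by
    intro x y
    have h1 := hR (x + y)
    have h2 : b (R (x + y)) (R (x + y)) = b (x + y) (x + y) := h1
    rw [map_add, hadd, hadd', hadd', hadd, hadd', hadd', hsym (R y) (R x), hsym y x] at h2
    have h3 : b (R x) (R x) = b x x := hR x
    have h4 : b (R y) (R y) = b y y := hR y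
    linarith
  have hN : ∀ x, (1 - R) x = x - R x := fun x => rfl
  -- the form is alternating
  have h1 : 2 * b w ((1 - R) w) = b ((1 - R) w) ((1 - R) w) := by
    rw [hN, hsub, hsub, hsub', hsub', hRR, hsym (R w) w]
    ring
  obtain ⟨t, ht⟩ := hev y
  have h2 : b w y = p * t := by
    have h3 : b y y = 2 * t := ht
    rw [hw, hsmul, hsmul, hsmul', h3] at h1
    have h4 : (2 * (p : ℤ)) * b w y = (2 * (p : ℤ)) * (p * t) := by linarith
    exact mul_left_cancel₀ (mul_ne_zero two_ne_zero hp0) h4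
  have h3 : ∀ z, b w ((1 - R) z) = - (p * b y (R z)) := by
    intro z
    rw [hN, hsub, ← hRR w z]
    have h4 : b (R w) (R z) - b w (R z) = - b ((1 - R) w) (R z) := by
      rw [hN, hsub']; ring
    rw [h4, hw, hsmul']
  have h4 : ∀ g, (p : ℤ) ∣ b w g := by
    intro g
    obtain ⟨c, z, hcz⟩ := hg g
    have h5 : m * b w g = p * (c * t - b y (R z)) := by
      rw [← hsmul, hcz, hadd, hsmul, h2, h3]
      ring
    have h6 : (p : ℤ) ∣ m * b w g := ⟨_, h5⟩
    exact (Int.Prime.dvd_mul' hp h6).resolve_left hm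
  choose u hu using fun i => h4 (Pi.single i 1)
  have h5 : A *ᵥ w = (p : ℤ) • u := by
    funext i
    have h6 := hu i
    rw [hsym, hb, single_one_dotProduct] at h6
    rw [h6, Pi.smul_apply, smul_eq_mul]
  have h6 : w = (p : ℤ) • (B *ᵥ u) := by
    rw [← Matrix.mulVec_smul, ← h5, Matrix.mulVec_mulVec, hB, Matrix.one_mulVec]
  apply hy
  refine ⟨B *ᵥ u, ?_⟩
  have h7 : (p : ℤ) • (1 - R) (B *ᵥ u) = (p : ℤ) • y := by
    rw [← map_smul, ← h6, hw]
  exact smul_right_injective (Fin n → ℤ) hp0 h7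

end Cfsg.Agent.R2.Spec.EE.Lat8
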