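import Cfsg.Agent.R2.Spec.EE.NumSz

/-!
# Bounds for products of cyclotomic values by comparison of coefficients (packet EE-NUM (6), helper5)

* `list_bound` : `chk l s C E = true` gives `∏_{d ∈ l} |Φ_d(±q)| ≤ C q ^ E` for all `q ≥ 3`.
-/

set_option autoImplicit false

namespace Cfsg.Agent.R2.Spec.EE

namespace NumPoly

open Polynomial Cfsg.Agent.Lib.Zsigmondy Cfsg.Agent.H416.Arith

/-! ### lists of coefficients -/

def ev : List ℤ → ℤ → ℤ
  | [], _ => 0
  | c :: l, x => c + x * ev l x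

def padd : List ℤ → List ℤ → List ℤ
  | [], m => m
  | a :: l, [] => a :: l
  | a :: l, b :: m => (a + b) :: padd l m

def psmul (c : ℤ) (l : List ℤ) : List ℤ := l.map (c * ·)

def pmul : List ℤ → List ℤ → List ℤ
  | [], _ => []
  | a :: l, m => padd (psmul a m) (0 :: pmul l m)

def pshift (s : ℤ) : List ℤ → List ℤ
  | [] => []
  | c :: l => padd [c] (pmul [s, 1] (pshift s l))

def pn : List ℤ → List ℤ
  | [] => []
  | c :: l => c :: psmul (-1) (pn l)

def ppow (l : List ℤ) : ℕ → List ℤ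
  | 0 => [1]
  | n + 1 => pmul l (ppow l n)

theorem ev_padd (l m : List ℤ) (x : ℤ) : ev (padd l m) x = ev l x + ev m x := by
  induction l generalizing m with
  | nil => rw [padd, ev, zero_add]
  | cons a l ih =>
    cases m with
    | nil => rw [padd, show ev [] x = 0 from rfl, add_zero]
    | cons b m =>
      rw [padd, ev, ev, ev, ih]
      ring

theorem ev_psmul (c : ℤ) (l : List ℤ) (x : ℤ) : ev (psmul c l) x = c * ev l x := by
  induction l with
  | nil => rw [psmul, List.map_nil, ev, mul_zero]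
  | cons a l ih =>
    have h : psmul c (a :: l) = (c * a) :: psmul c l := rfl
    rw [h, ev, ev, ih]
    ring

theorem ev_pmul (l m : List ℤ) (x : ℤ) : ev (pmul l m) x = ev l x * ev m x := by
  induction l with
  | nil => rw [pmul, ev, zero_mul]
  | cons a l ih =>
    rw [pmul, ev_padd, ev_psmul, ev, ev, ih]
    ring

theorem ev_pshift (s : ℤ) (l : List ℤ) (x : ℤ) : ev (pshift s l) x = ev l (x + s) := by
  induction l with
  | nil => rfl
  | cons c l ih =>
    rw [pshift, ev_padd, ev_pmul, ih, ev]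
    simp only [ev]
    ring

theorem ev_pn (l : List ℤ) (x : ℤ) : ev (pn l) x = ev l (-x) := by
  induction l with
  | nil => rfl
  | cons c l ih =>
    rw [pn, ev, ev_psmul, ih, ev]
    ring

theorem ev_ppow (l : List ℤ) (n : ℕ) (x : ℤ) : ev (ppow l n) x = ev l x ^ n := by
  induction n with
  | zero =>
    rw [ppow, pow_zero]
    simp [ev]
  | succ n ih => rw [ppow, ev_pmul, ih, pow_succ']

theorem ev_nonneg {l : List ℤ} (h : l.all (fun c => decide (0 ≤ c)) = true) {x : ℤ} (hx : 0 ≤ x) : 0 ≤ ev l x := by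
  induction l with
  | nil => exact le_rfl
  | cons c l ih =>
    rw [List.all_cons, Bool.and_eq_true, decide_eq_true_eq] at h
    rw [ev]
    exact add_nonneg h.1 (mul_nonneg hx (ih h.2))

/-! ### the cyclotomic polynomials -/

def cl : ℕ → List ℤ
  | 1 => [-1, 1]
  | 2 => [1, 1]
  | 3 => [1, 1, 1]
  | 4 => [1, 0, 1]
  | 5 => [1, 1, 1, 1, 1]
  | 6 => [1, -1, 1]
  | 7 => [1, 1, 1, 1, 1, 1, 1]
  | 8 => [1, 0, 0, 0, 1]
  | 9 => [1, 0, 0, 1, 0, 0, 1]
  | 10 => [1, -1, 1, -1, 1]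
  | 11 => [1, 1, 1, 1, 1, 1, 1, 1, 1, 1, 1]
  | 12 => [1, 0, -1, 0, 1]
  | 13 => [1, 1, 1, 1, 1, 1, 1, 1, 1, 1, 1, 1, 1]
  | 14 => [1, -1, 1, -1, 1, -1, 1]
  | 16 => [1, 0, 0, 0, 0, 0, 0, 0, 1]
  | 18 => [1, 0, 0, -1, 0, 0, 1]
  | 20 => [1, 0, -1, 0, 1, 0, -1, 0, 1]
  | _ => []

theorem eval_11 (x : ℤ) : (cyclotomic 11 ℤ).eval x = ev (cl 11) x := by
  have : Fact (Nat.Prime 11) := ⟨by norm_num⟩
  rw [cyclotomic_prime ℤ 11]
  simp [Finset.sum_range_succ, cl, ev]; ring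

theorem eval_13 (x : ℤ) : (cyclotomic 13 ℤ).eval x = ev (cl 13) x := by
  have : Fact (Nat.Prime 13) := ⟨by norm_num⟩
  rw [cyclotomic_prime ℤ 13]
  simp [Finset.sum_range_succ, cl, ev]; ring

theorem eval_16 (x : ℤ) : (cyclotomic 16 ℤ).eval x = ev (cl 16) x := by
  rw [show (16 : ℕ) = 2 ^ (3 + 1) by norm_num, cyclotomic_prime_pow_eq_geom_sum Nat.prime_two]
  simp [Finset.sum_range_succ, cl, ev]; ring

theorem cl_all {d : ℕ} (hd : d ∈ [1, 2, 3, 4, 5, 6, 7, 8, 9, 10, 11, 12, 13]) (x : ℤ) :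
    (cyclotomic d ℤ).eval x = ev (cl d) x := by
  simp only [List.mem_cons, List.not_mem_nil, or_false] at hd
  rcases hd with rfl | rfl | rfl | rfl | rfl | rfl | rfl | rfl | rfl | rfl | rfl | rfl | rfl
  · rw [cyclotomic_one]; simp [cl, ev]; ring
  · rw [cyclotomic_two]; simp [cl, ev]; ring
  · rw [cyclotomic_three]; simp [cl, ev]; ring
  · rw [NumA.eval_4]; simp only [cl, ev]; ring
  · rw [NumA.eval_5]; simp only [cl, ev]; ring
  · rw [cyclotomic_six]; simp [cl, ev]; ring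
  · rw [NumA.eval_7]; simp only [cl, ev]; ring
  · rw [NumA.eval_8]; simp only [cl, ev]; ring
  · rw [NumA.eval_9]; simp only [cl, ev]; ring
  · rw [NumA.eval_10]; simp only [cl, ev]; ring
  · exact eval_11 x
  · rw [NumA.eval_12]; simp only [cl, ev]; ring
  · exact eval_13 x

theorem cl_pos {d : ℕ} (hd : d ∈ [1, 2, 3, 4, 5, 6, 7, 8, 9, 10, 11, 12, 13, 14, 16, 18, 20]) {x : ℤ} (hx : 0 ≤ x) :
    (cyclotomic d ℤ).eval x = ev (cl d) x := by
  by_cases h : d ∈ [1, 2, 3, 4, 5, 6, 7, 8, 9, 10, 11, 12, 13]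
  · exact cl_all h x
  · simp only [List.mem_cons, List.not_mem_nil, or_false] at hd h
    have hd' : d = 14 ∨ d = 16 ∨ d = 18 ∨ d = 20 := by omega
    rcases hd' with rfl | rfl | rfl | rfl
    · rw [NumA.eval_14 x hx]; simp only [cl, ev]; ring
    · exact eval_16 x
    · rw [NumA.eval_18 x hx]; simp only [cl, ev]; ring
    · rw [NumA.eval_20]; simp only [cl, ev]; ring

/-! ### the comparison -/

def prodL (l : List ℕ) : List ℤ := (l.map cl).foldr pmul [1]

def chk (l : List ℕ) (s : Bool) (C : ℤ) (E : ℕ) : Bool :=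
  let P := prodL l
  let Q := pshift 3 (if s then pn P else P)
  let R := psmul C (ppow [3, 1] E)
  (padd R (psmul (-1) Q)).all (fun c => decide (0 ≤ c)) && (padd R Q).all (fun c => decide (0 ≤ c))

theorem ev_prodL (l : List ℕ) (x : ℤ) : ev (prodL l) x = (l.map fun d => ev (cl d) x).prod := by
  induction l with
  | nil => simp [prodL, ev]
  | cons d l ih =>
    have h : prodL (d :: l) = pmul (cl d) (prodL l) := rfl
    rw [h, ev_pmul, ih, List.map_cons, List.prod_cons]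

theorem natAbs_prod (l : List ℕ) (f : ℕ → ℤ) : (l.map fun d => (f d).natAbs).prod = (l.map f).prod.natAbs := by
  induction l with
  | nil => rfl
  | cons d l ih => rw [List.map_cons, List.prod_cons, ih, List.map_cons, List.prod_cons, Int.natAbs_mul]

theorem chk_bound {l : List ℕ} {s : Bool} {C E : ℕ} (h : chk l s C E = true) {q : ℕ} (hq : 3 ≤ q) :
    (ev (prodL l) (if s then -(q : ℤ) else q)).natAbs ≤ C * q ^ E := by
  unfold chk at h
  simp only [Bool.and_eq_true] at h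
  obtain ⟨y, rfl⟩ : ∃ y : ℕ, q = y + 3 := ⟨q - 3, by omega⟩
  have hy : (0 : ℤ) ≤ (y : ℤ) := Int.natCast_nonneg y
  have h1 := ev_nonneg h.1 hy
  have h2 := ev_nonneg h.2 hy
  have e1 : ev (pshift 3 (if s then pn (prodL l) else prodL l)) (y : ℤ) =
      ev (prodL l) (if s then -((y + 3 : ℕ) : ℤ) else ((y + 3 : ℕ) : ℤ)) := by
    rw [ev_pshift]
    cases s
    · simp
    · simp only [if_true]
      rw [ev_pn]
      push_cast
      rfl
  have e2 : ev [3, 1] (y : ℤ) = ((y + 3 : ℕ) : ℤ) := by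
    simp only [ev]
    push_cast
    ring
  rw [ev_padd, ev_psmul, ev_psmul, ev_ppow, e1, e2] at h1
  rw [ev_padd, ev_psmul, ev_ppow, e1, e2] at h2
  have h3 : |ev (prodL l) (if s then -((y + 3 : ℕ) : ℤ) else ((y + 3 : ℕ) : ℤ))| ≤ (C : ℤ) * ((y + 3 : ℕ) : ℤ) ^ E := by
    rw [abs_le]
    constructor <;> linarith
  have h4 : (((ev (prodL l) (if s then -((y + 3 : ℕ) : ℤ) else ((y + 3 : ℕ) : ℤ))).natAbs : ℕ) : ℤ) ≤
      ((C * (y + 3) ^ E : ℕ) : ℤ) := by
    rw [Int.natCast_natAbs]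
    push_cast at h3 ⊢
    exact h3
  exact_mod_cast h4

/-- **The bound**, positive argument. -/
theorem bound_pos {l : List ℕ} (hl : ∀ d ∈ l, d ∈ [1, 2, 3, 4, 5, 6, 7, 8, 9, 10, 11, 12, 13, 14, 16, 18, 20]) {C E : ℕ}
    (h : chk l false C E = true) {q : ℕ} (hq : 3 ≤ q) :
    (l.map fun d => ((cyclotomic d ℤ).eval (q : ℤ)).natAbs).prod ≤ C * q ^ E := by
  have h1 := chk_bound h hq
  rw [ev_prodL] at h1
  rw [natAbs_prod]
  have h2 : (l.map fun d => (cyclotomic d ℤ).eval (q : ℤ)) = l.map fun d => ev (cl d) (q : ℤ) :=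
    List.map_congr_left fun d hd => cl_pos (hl d hd) (Int.natCast_nonneg q)
  rw [h2]
  simpa using h1

/-- **The bound**, negative argument. -/
theorem bound_neg {l : List ℕ} (hl : ∀ d ∈ l, d ∈ [1, 2, 3, 4, 5, 6, 7, 8, 9, 10, 11, 12, 13]) {C E : ℕ}
    (h : chk l true C E = true) {q : ℕ} (hq : 3 ≤ q) :
    (l.map fun d => ((cyclotomic d ℤ).eval (-(q : ℤ))).natAbs).prod ≤ C * q ^ E := by
  have h1 := chk_bound h hq
  rw [ev_prodL] at h1
  rw [natAbs_prod]
  have h2 : (l.map fun d => (cyclotomic d ℤ).eval (-(q : ℤ))) = l.map fun d => ev (cl d) (-(q : ℤ)) :=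
    List.map_congr_left fun d hd => cl_all (hl d hd) _
  rw [h2]
  simpa using h1

/-! ### the cases -/

theorem c_psl9 : chk [1, 2, 3, 4, 5, 6, 7, 8, 9] false 3 28 = true := by decide +kernel

theorem c_psl10 : chk [1, 2, 3, 4, 5, 6, 7, 8, 9, 10] false 2 32 = true := by decide +kernel

theorem c_psl13 : chk [1, 2, 3, 4, 5, 6, 7, 8, 9, 10, 11, 12, 13] false 4 58 = true := by decide +kernel

theorem c_psu9 : chk [1, 2, 3, 4, 5, 6, 7, 8, 9] true 1 28 = true := by decide +kernel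

theorem c_psu10 : chk [1, 2, 3, 4, 5, 6, 7, 8, 9, 10] true 1 32 = true := by decide +kernel

theorem c_psu13 : chk [1, 2, 3, 4, 5, 6, 7, 8, 9, 10, 11, 12, 13] true 1 58 = true := by decide +kernel

theorem c_c8 : chk [1, 2, 3, 4, 5, 6, 7, 8, 10, 12, 14, 16] false 2 44 = true := by decide +kernel

theorem c_d8 : chk [1, 2, 3, 4, 5, 6, 7, 8, 10, 12, 14] false 2 36 = true := by decide +kernel

theorem c_c9 : chk [1, 2, 3, 4, 5, 6, 7, 8, 9, 10, 12, 14, 16, 18] false 2 56 = true := by decide +kernel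

theorem c_d9 : chk [1, 2, 3, 4, 5, 6, 7, 8, 9, 10, 12, 14, 16] false 2 50 = true := by decide +kernel

theorem c_e9 : chk [1, 2, 3, 4, 5, 6, 7, 8, 10, 12, 14, 16, 18] false 2 50 = true := by decide +kernel

theorem c_c10 : chk [1, 2, 3, 4, 5, 6, 7, 8, 9, 10, 12, 14, 16, 18, 20] false 2 64 = true := by decide +kernel

theorem c_d10 : chk [1, 2, 3, 4, 5, 6, 7, 8, 9, 10, 12, 14, 16, 18] false 2 56 = true := by decide +kernel

end NumPoly

end Cfsg.Agent.R2.Spec.EE
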