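import Cfsg.Agent.R2.Spec.EE.ReeNum

/-!
# The Ree groups against the isolated classes: the second bracket and the finite check (helper29)
-/

set_option autoImplicit false

namespace Cfsg.Agent.R2.Spec.EE.ReeNum

/-- the second bracket, `Φ₅(q)` and `q⁴ + 1` -/
theorem second {q w X Y M M' e e' m m' Φ : ℤ} (hq : 200 ≤ q) (hw : 0 ≤ w) (hw5 : w < 5 * q ^ 2) (hX : X = e * M)
    (hY : Y = e' * M') (hM : m * M = Φ) (hM' : m' * M' = q ^ 4 + 1) (hm : 1 ≤ m) (hm5 : m ≤ 5) (hm' : 1 ≤ m') (hm2 : m' ≤ 2)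
    (hd : |Y - X| ≤ 2 * w) (hs : 2 * X ≤ w ^ 2) (hX0 : 0 < X) (hY0 : 0 < Y)
    (hΦ : Φ = q ^ 4 + q ^ 3 + q ^ 2 + q + 1 ∨ Φ = q ^ 4 - q ^ 3 + q ^ 2 - q + 1) : False := by
  have hΦ0 : 0 < Φ := by
    rcases hΦ with h | h <;> rw [h]
    · positivity
    · nlinarith [pow_pos (show (0:ℤ) < q by omega) 3, pow_pos (show (0:ℤ) < q by omega) 2]
  set A := m' * e with hA
  set B := m * e' with hB
  have e1 : A * Φ = m * m' * X := by rw [hA, hX, ← hM]; ring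
  have e2 : B * (q ^ 4 + 1) = m * m' * Y := by rw [hB, hY, ← hM']; ring
  have hmm : m * m' ≤ 10 := by nlinarith
  have hmm0 : 0 < m * m' := by positivity
  have hA0 : 0 < A := by
    have : 0 < A * Φ := by rw [e1]; positivity
    exact (pos_iff_pos_of_mul_pos this).2 hΦ0
  have hB0 : 0 < B := by
    have : 0 < B * (q ^ 4 + 1) := by rw [e2]; positivity
    exact (pos_iff_pos_of_mul_pos this).2 (by positivity)
  have hAΦ : A * Φ ≤ 125 * q ^ 4 := by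
    have h1 : w ^ 2 ≤ (5 * q ^ 2) ^ 2 := pow_le_pow_left₀ hw hw5.le 2
    have h2 : m * m' * X ≤ 10 * X := mul_le_mul_of_nonneg_right hmm hX0.le
    rw [e1]
    nlinarith
  have hdiff : |A * Φ - B * (q ^ 4 + 1)| ≤ 100 * q ^ 2 := by
    rw [e1, e2, show m * m' * X - m * m' * Y = -(m * m' * (Y - X)) by ring, abs_neg, abs_mul, abs_of_pos hmm0]
    calc m * m' * |Y - X| ≤ 10 * (2 * w) := mul_le_mul hmm hd (abs_nonneg _) (by norm_num)
      _ ≤ 100 * q ^ 2 := by linarith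
  rw [abs_le] at hdiff
  obtain ⟨d1, d2⟩ := hdiff
  have hq2 : (200 : ℤ) * q ≤ q ^ 2 := by nlinarith
  have hq3 : 200 * q ^ 2 ≤ q ^ 3 := by nlinarith [pow_pos (show (0:ℤ) < q by omega) 2]
  have hq4 : 200 * q ^ 3 ≤ q ^ 4 := by nlinarith [pow_pos (show (0:ℤ) < q by omega) 3]
  rcases hΦ with h | h
  · rw [h] at hAΦ d1 d2
    have hA125 : A ≤ 125 := by
      by_contra hcon
      have h3 : 126 * (q ^ 4 + q ^ 3 + q ^ 2 + q + 1) ≤ A * (q ^ 4 + q ^ 3 + q ^ 2 + q + 1) :=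
        mul_le_mul_of_nonneg_right (by omega) (by positivity)
      nlinarith [pow_pos (show (0:ℤ) < q by omega) 3]
    rcases le_or_gt B A with hBA | hBA
    · have h3 : B * (q ^ 4 + 1) ≤ A * (q ^ 4 + 1) := mul_le_mul_of_nonneg_right hBA (by positivity)
      have h4 : 1 * (q ^ 3 + q ^ 2 + q) ≤ A * (q ^ 3 + q ^ 2 + q) := mul_le_mul_of_nonneg_right (by omega) (by positivity)
      nlinarith
    · have h3 : (A + 1) * (q ^ 4 + 1) ≤ B * (q ^ 4 + 1) := mul_le_mul_of_nonneg_right (by omega) (by positivity)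
      have h4 : A * (q ^ 3 + q ^ 2 + q) ≤ 125 * (q ^ 3 + q ^ 2 + q) := mul_le_mul_of_nonneg_right (by omega) (by positivity)
      nlinarith
  · rw [h] at hAΦ d1 d2
    have hA126 : A ≤ 126 := by
      by_contra hcon
      have h3 : 127 * (q ^ 4 - q ^ 3 + q ^ 2 - q + 1) ≤ A * (q ^ 4 - q ^ 3 + q ^ 2 - q + 1) :=
        mul_le_mul_of_nonneg_right (by omega) (by nlinarith)
      nlinarith [pow_pos (show (0:ℤ) < q by omega) 3]
    rcases le_or_gt A B with hBA | hBA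
    · have h3 : A * (q ^ 4 + 1) ≤ B * (q ^ 4 + 1) := mul_le_mul_of_nonneg_right hBA (by positivity)
      have h4 : 1 * (q ^ 3 - q ^ 2 + q) ≤ A * (q ^ 3 - q ^ 2 + q) := mul_le_mul_of_nonneg_right (by omega) (by nlinarith)
      nlinarith
    · have h3 : (B + 1) * (q ^ 4 + 1) ≤ A * (q ^ 4 + 1) := mul_le_mul_of_nonneg_right (by omega) (by positivity)
      have h4 : A * (q ^ 3 - q ^ 2 + q) ≤ 126 * (q ^ 3 - q ^ 2 + q) := mul_le_mul_of_nonneg_right (by omega) (by nlinarith)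
      nlinarith

/-! ### the finite check -/

/-- the four numbers, natural numbers, `f = 2 g + 1` -/
def XN (g : ℕ) : ℕ → ℕ
  | 0 => 3 ^ (2 * g + 1) - 1
  | 1 => 3 ^ (2 * g + 1) + 1
  | 2 => 3 ^ (2 * g + 1) + 3 ^ (g + 1) + 1
  | _ => 3 ^ (2 * g + 1) + 1 - 3 ^ (g + 1)

/-- no number `X` divides `N` with `Ph ≤ l X` -/
def one (N Ph l g : ℕ) : Bool :=
  !((N % XN g 0 == 0) && Nat.ble Ph (l * XN g 0)) && !((N % XN g 1 == 0) && Nat.ble Ph (l * XN g 1)) &&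
    !((N % XN g 2 == 0) && Nat.ble Ph (l * XN g 2)) && !((N % XN g 3 == 0) && Nat.ble Ph (l * XN g 3))

def allg (N Ph l : ℕ) : ℕ → Bool
  | 0 => true
  | g + 1 => (Nat.beq g 0 || one N Ph l g) && allg N Ph l g

def P5 (q : ℕ) : ℕ := q ^ 4 + q ^ 3 + q ^ 2 + q + 1
def P10 (q : ℕ) : ℕ := q ^ 4 + q ^ 2 + 1 - q ^ 3 - q
def P7 (q : ℕ) : ℕ := q ^ 6 + q ^ 5 + q ^ 4 + q ^ 3 + q ^ 2 + q + 1
def P14 (q : ℕ) : ℕ := q ^ 6 + q ^ 4 + q ^ 2 + 1 - q ^ 5 - q ^ 3 - q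

/-- the odd `q = 2 x + 3`, `x < n` -/
def allq : ℕ → Bool
  | 0 => true
  | x + 1 => ((2 * x + 3) % 3 == 0 ||
      (allg (2 * ((2 * x + 3) ^ 5 - 1)) (P5 (2 * x + 3)) 5 24 && allg (2 * ((2 * x + 3) ^ 5 + 1)) (P10 (2 * x + 3)) 5 24 &&
        allg (2 * ((2 * x + 3) ^ 7 - 1)) (P7 (2 * x + 3)) 7 24 && allg (2 * ((2 * x + 3) ^ 7 + 1)) (P14 (2 * x + 3)) 7 24)) &&
      allq x

set_option maxRecDepth 100000 in
theorem allq_ok : allq 600 = true := by decide +kernel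

end Cfsg.Agent.R2.Spec.EE.ReeNum
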