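import Mathlib

/-!
# `²F₄(u)` and two exact tops (helper3): the numbers

`x = 2 ^ m`, `u = 2 x²`, `U = u² - u + 1`, `a`, `b` the two large torus numbers: if `2 k A + 1 = Q`, `2 k' B = Q + 1` with
`A ≠ B` in `{U, a, b}`, then `2 (b - x - 1) b ≤ (Q + 1) (2 x + 1)`.
-/

set_option autoImplicit false

namespace Cfsg.Agent.R2.Spec.EE.TFn

def nU (x : ℤ) : ℤ := 4 * x ^ 4 - 2 * x ^ 2 + 1
def nA (x : ℤ) : ℤ := 4 * x ^ 4 + 4 * x ^ 3 + 2 * x ^ 2 + 2 * x + 1
def nB (x : ℤ) : ℤ := 4 * x ^ 4 - 4 * x ^ 3 + 2 * x ^ 2 - 2 * x + 1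

theorem rel_AB (x : ℤ) : (x - 1) * nA x - (x + 1) * nB x = -2 := by unfold nA nB; ring
theorem rel_AU (x : ℤ) : (x - 1) * nA x - x * nU x = -(2 * x + 1) := by unfold nA nU; ring
theorem rel_BU (x : ℤ) : (x + 1) * nB x - x * nU x = -(2 * x - 1) := by unfold nB nU; ring

theorem nB_pos {x : ℤ} (hx : 2 ≤ x) : 0 < nB x := by
  unfold nB
  nlinarith [mul_nonneg (show (0 : ℤ) ≤ x - 2 by linarith) (show (0 : ℤ) ≤ x ^ 3 by positivity), pow_pos (show (0 : ℤ) < x by linarith) 3]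

theorem nB_le_nU {x : ℤ} (hx : 2 ≤ x) : nB x ≤ nU x := by
  unfold nB nU
  nlinarith [mul_nonneg (show (0 : ℤ) ≤ x - 2 by linarith) (show (0 : ℤ) ≤ x ^ 2 by positivity)]

theorem nU_le_nA {x : ℤ} (hx : 2 ≤ x) : nU x ≤ nA x := by
  unfold nA nU
  nlinarith [pow_pos (show (0 : ℤ) < x by linarith) 3, pow_pos (show (0 : ℤ) < x by linarith) 2]

theorem big_B {x : ℤ} (hx : 2 ≤ x) : 3 * x + 3 ≤ nB x := by
  unfold nB
  nlinarith [mul_nonneg (show (0 : ℤ) ≤ x - 2 by linarith) (show (0 : ℤ) ≤ x ^ 3 by positivity), pow_pos (show (0 : ℤ) < x by linarith) 3,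
    mul_nonneg (show (0 : ℤ) ≤ x - 2 by linarith) (show (0 : ℤ) ≤ x ^ 2 by positivity)]

theorem le_of_mul {P D R : ℤ} (hP : 0 < P) (hR : 0 < R) (h : P * D = R) : P ≤ R := by
  have h1 : 0 < D := by
    by_contra hcon
    have := mul_nonpos_of_nonneg_of_nonpos hP.le (not_lt.1 hcon)
    omega
  have := mul_le_mul_of_nonneg_left (show (1 : ℤ) ≤ D by omega) hP.le
  linarith

/-- the six cases: `k' B - k A = 1` -/
theorem coef_aux {x U a b A B k k' : ℤ} (hx : 2 ≤ x) (hev : 2 ∣ x) (hk' : 0 < k')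
    (hb : 3 * x + 3 ≤ b) (hbu : b ≤ U) (hua : U ≤ a) (r1 : (x - 1) * a - (x + 1) * b = -2)
    (r2 : (x - 1) * a - x * U = -(2 * x + 1)) (r3 : (x + 1) * b - x * U = -(2 * x - 1))
    (hA : A = U ∨ A = a ∨ A = b) (hB : B = U ∨ B = a ∨ B = b) (hne : A ≠ B)
    (h : k' * B - k * A = 1) : b - x - 1 ≤ k' * (2 * x + 1) := by
  have e1 : 0 ≤ (k' - 1) * x := mul_nonneg (by linarith) (by linarith)
  have key2 : 2 * k' ≤ k' * (2 * x + 1) := by nlinarith
  rcases hA with rfl | rfl | rfl <;> rcases hB with rfl | rfl | rfl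
  · exact absurd rfl hne
  · -- A = U, B = a
    have h1 : A * (k' * x - k * (x - 1)) = (x - 1) + k' * (2 * x + 1) := by
      linear_combination (x - 1) * h - k' * r2
    have := le_of_mul (by linarith) (by nlinarith) h1
    linarith
  · -- A = U, B = b
    have h1 : A * (k' * x - k * (x + 1)) = (x + 1) + k' * (2 * x - 1) := by
      linear_combination (x + 1) * h - k' * r3
    have := le_of_mul (by linarith) (by nlinarith) h1
    nlinarith
  · -- A = a, B = U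
    have h1 : A * (k * x - k' * (x - 1)) = k' * (2 * x + 1) - x := by
      linear_combination (-x) * h - k' * r2
    have := le_of_mul (by linarith) (by nlinarith) h1
    linarith
  · exact absurd rfl hne
  · -- A = a, B = b
    have h1 : A * (k * (x + 1) - k' * (x - 1)) = 2 * k' - (x + 1) := by
      linear_combination (-(x + 1)) * h - k' * r1
    have hpos : 0 < 2 * k' - (x + 1) := by
      obtain ⟨y, hy⟩ := hev
      by_contra hcon
      have h2 : k * (x + 1) - k' * (x - 1) ≤ 0 := by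
        by_contra h3
        have := mul_pos (show 0 < A by linarith) (not_le.1 h3)
        linarith
      rcases eq_or_lt_of_le h2 with h3 | h3
      · rw [h3, mul_zero] at h1
        omega
      · have := mul_le_mul_of_nonneg_left (show k * (x + 1) - k' * (x - 1) ≤ -1 by omega) (show 0 ≤ A by linarith)
        linarith
    have := le_of_mul (by linarith) hpos h1
    linarith
  · -- A = b, B = U
    have h1 : A * (k * x - k' * (x + 1)) = k' * (2 * x - 1) - x := by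
      linear_combination (-x) * h - k' * r3
    have := le_of_mul (by linarith) (by nlinarith) h1
    nlinarith
  · -- A = b, B = a
    have h1 : A * (k' * (x + 1) - k * (x - 1)) = (x - 1) + 2 * k' := by
      linear_combination (x - 1) * h - k' * r1
    have := le_of_mul (by linarith) (by linarith) h1
    linarith
  · exact absurd rfl hne

theorem coef {x A B k k' : ℤ} (hx : 2 ≤ x) (hev : 2 ∣ x) (hk' : 0 < k')
    (hA : A = nU x ∨ A = nA x ∨ A = nB x) (hB : B = nU x ∨ B = nA x ∨ B = nB x) (hne : A ≠ B)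
    (h : k' * B - k * A = 1) : nB x - x - 1 ≤ k' * (2 * x + 1) :=
  coef_aux hx hev hk' (big_B hx) (nB_le_nU hx) (nU_le_nA hx) (rel_AB x) (rel_AU x) (rel_BU x) hA hB hne h

/-- **the bound for `Q`** -/
theorem Q_ge {x A B k k' Q : ℤ} (hx : 2 ≤ x) (hev : 2 ∣ x) (hQ : 0 < Q)
    (hA : A = nU x ∨ A = nA x ∨ A = nB x) (hB : B = nU x ∨ B = nA x ∨ B = nB x) (hne : A ≠ B)
    (h1 : 2 * (k * A) + 1 = Q) (h2 : 2 * (k' * B) = Q + 1) :
    2 * ((nB x - x - 1) * nB x) ≤ (Q + 1) * (2 * x + 1) := by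
  have hb := big_B hx
  have hB' : nB x ≤ B := by
    have h3 := nB_le_nU hx
    have h4 := nU_le_nA hx
    rcases hB with rfl | rfl | rfl <;> linarith
  have hk' : 0 < k' := by
    by_contra hcon
    have := mul_nonpos_of_nonpos_of_nonneg (not_lt.1 hcon) (show 0 ≤ B by linarith)
    linarith
  have h3 := coef (k := k) hx hev hk' hA hB hne (by linarith)
  have h4 : (nB x - x - 1) * nB x ≤ k' * (2 * x + 1) * B :=
    mul_le_mul h3 hB' (by linarith) (by nlinarith)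
  nlinarith

/-- **the contradiction**: `q ^ 5 = Q`, `q ^ 4 ≤ 5 (2 x² + 2 x + 1) ^ 2`, `x = 2 ^ m`, `m ≥ 1` -/
theorem final {q m : ℕ} {A B k k' : ℤ} (hm : 1 ≤ m) (hq3 : 3 ≤ q) (hq : q % 2 = 1)
    (hA : A = nU (2 ^ m) ∨ A = nA (2 ^ m) ∨ A = nB (2 ^ m)) (hB : B = nU (2 ^ m) ∨ B = nA (2 ^ m) ∨ B = nB (2 ^ m))
    (hne : A ≠ B) (h1 : 2 * (k * A) + 1 = (q : ℤ) ^ 5) (h2 : 2 * (k' * B) = (q : ℤ) ^ 5 + 1)
    (hs : q ^ 4 ≤ 5 * (2 * (2 ^ m) ^ 2 + 2 * 2 ^ m + 1) ^ 2) : False := by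
  rcases Nat.eq_or_lt_of_le hm with h | h
  · subst h
    have h3 : q < 6 := by
      by_contra hcon
      have := Nat.pow_le_pow_left (not_lt.1 hcon) 4
      norm_num at hs this
      omega
    have hq' : q = 3 ∨ q = 5 := by omega
    have c1 : ∀ A : ℤ, (A = nU (2 ^ 1) ∨ A = nA (2 ^ 1) ∨ A = nB (2 ^ 1)) → A = 57 ∨ A = 109 ∨ A = 37 := by
      intro A hA
      unfold nU nA nB at hA
      norm_num at hA
      exact hA
    rcases hq' with rfl | rfl <;> rcases c1 A hA with rfl | rfl | rfl <;> norm_num at h1 <;> omega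
  · have hx4 : 4 ≤ (2 : ℤ) ^ m := by
      calc (4 : ℤ) = 2 ^ 2 := by norm_num
        _ ≤ 2 ^ m := pow_le_pow_right₀ (by norm_num) h
    have hev : (2 : ℤ) ∣ 2 ^ m := dvd_pow_self 2 (by omega)
    have h3 := Q_ge (by linarith) hev (by positivity) hA hB hne h1 h2
    have hs' : (q : ℤ) ^ 4 ≤ 5 * (2 * (2 ^ m) ^ 2 + 2 * 2 ^ m + 1) ^ 2 := by exact_mod_cast hs
    generalize (2 : ℤ) ^ m = x at *
    -- `4 b ≥ 11 x^4`
    have hb : 3 * x ^ 4 ≤ nB x - x - 1 := by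
      unfold nB
      nlinarith [mul_nonneg (show (0 : ℤ) ≤ x - 4 by linarith) (show (0 : ℤ) ≤ x ^ 3 by positivity),
        mul_nonneg (show (0 : ℤ) ≤ x - 4 by linarith) (show (0 : ℤ) ≤ x by linarith)]
    have hb' : 3 * x ^ 4 ≤ nB x := by linarith
    have h4 : 18 * x ^ 8 ≤ (q ^ 5 + 1) * (2 * x + 1) := by
      have h5 : (3 * x ^ 4) * (3 * x ^ 4) ≤ (nB x - x - 1) * nB x :=
        mul_le_mul hb hb' (by positivity) (by nlinarith [show (0 : ℤ) ≤ x ^ 4 by positivity])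
      nlinarith
    -- `q ^ 4 ≤ 33 x ^ 4`
    have h6 : (q : ℤ) ^ 4 ≤ 33 * x ^ 4 := by
      have h7 : 16 * (2 * x ^ 2 + 2 * x + 1) ≤ 41 * x ^ 2 := by nlinarith
      have h8 : (16 * (2 * x ^ 2 + 2 * x + 1)) ^ 2 ≤ (41 * x ^ 2) ^ 2 := pow_le_pow_left₀ (by positivity) h7 2
      nlinarith [show (0 : ℤ) ≤ x ^ 4 by positivity]
    -- `q ^ 5 ≤ 80 x ^ 5`
    have h7 : 5 * (q : ℤ) ≤ 12 * x := by
      by_contra hcon
      have h8 : (12 * x) ^ 4 < (5 * (q : ℤ)) ^ 4 := pow_lt_pow_left₀ (not_le.1 hcon) (by linarith) (by norm_num)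
      nlinarith [show (0 : ℤ) < x ^ 4 by positivity]
    have h8 : 5 * (q : ℤ) ^ 5 ≤ 396 * x ^ 5 := by
      calc 5 * (q : ℤ) ^ 5 = q ^ 4 * (5 * q) := by ring
        _ ≤ (33 * x ^ 4) * (12 * x) := mul_le_mul h6 h7 (by positivity) (by positivity)
        _ = 396 * x ^ 5 := by ring
    have h9 : (5 * ((q : ℤ) ^ 5 + 1)) * (4 * (2 * x + 1)) ≤ (400 * x ^ 5) * (9 * x) := by
      refine mul_le_mul ?_ (by linarith) (by linarith) (by positivity)
      have : (16 : ℤ) ≤ x ^ 5 := by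
        calc (16 : ℤ) ≤ 4 ^ 5 := by norm_num
          _ ≤ x ^ 5 := pow_le_pow_left₀ (by norm_num) hx4 5
      linarith
    have h10 : 360 * x ^ 8 ≤ 3600 * x ^ 6 := by
      have h11 : (400 * x ^ 5) * (9 * x) = 3600 * x ^ 6 := by ring
      linarith
    have h12 : 16 * x ^ 6 ≤ x ^ 8 := by
      have h13 : x ^ 8 = x ^ 6 * x ^ 2 := by ring
      have h14 : (16 : ℤ) ≤ x ^ 2 := by nlinarith
      rw [h13]
      nlinarith [show (0 : ℤ) < x ^ 6 by positivity]
    linarith [show (0 : ℤ) < x ^ 6 by positivity]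

end Cfsg.Agent.R2.Spec.EE.TFn
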