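import Cfsg.Agent.H637.PG.TwF4Non
import Cfsg.Agent.H944.TorAnyChev

/-!
# The odd orders of elements of `²F₄(q)` (helper20)

`odd_ord` : the order of an element of odd order of `²F₄(2 b²)`, `b = 2 ^ m`, divides the exponent of one of the eleven
tori (`TFv`).
-/

set_option autoImplicit false
set_option linter.unusedSectionVars false
set_option linter.unusedVariables false

namespace Cfsg.Agent.R2.Spec.EE

open CoxeterSystem Cfsg Cfsg.Lie Cfsg.Lie.ChevalleyDatum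
open Cfsg.Agent.ChevalleyStructure Cfsg.Agent.ChevalleyStructure.Elts Cfsg.Agent.ChevalleyStructure.CoxeterGeom
  Cfsg.Agent.ChevalleyStructure.CoxeterGeomTypes Cfsg.Agent.ChevalleyStructure.NPerm
open Cfsg.Agent.Tits.Roots Cfsg.Agent.Tits.Core Cfsg.Agent.Nodes Cfsg.Agent.Nodes.Reps Cfsg.Agent.Nodes.BNOf
  Cfsg.Agent.Nodes.RGDChev
open Cfsg.Agent.KFacts.RgdField Cfsg.Agent.KFacts.RgdChevCoord Cfsg.Agent.BpExc.TorCent Cfsg.Agent.BpExc.TorChev
open Cfsg.Agent.GpExc.Field Cfsg.Agent.BpExc.Tow Cfsg.Agent.BpExc.TowChev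
  Cfsg.Agent.BpExc.LangFr Cfsg.Agent.BpExc Cfsg.Agent.H129.TorusChar Cfsg.Agent.H129
open Cfsg.Agent.H493.F4End Cfsg.Agent.H493.F4Fix Cfsg.Agent.H493.F4Tor
open Cfsg.Agent.BpExc.TorAll (HAlg)
open Cfsg.Agent.H637.PG.TwF4W Cfsg.Agent.H637.PG.TwF4Non

universe u

/-- the tori of `²F₄(2 b²)` -/
def TFv (b n : ℤ) : Prop :=
  n ∣ (2 * b ^ 2 - 1) * (2 * b ^ 2 + 1) ∨ n ∣ (2 * b ^ 2 - 1) * (2 * b ^ 2 - 2 * b + 1) ∨
  n ∣ (2 * b ^ 2 - 1) * (2 * b ^ 2 + 2 * b + 1) ∨ n ∣ 4 * b ^ 4 - 4 * b ^ 3 + 2 * b ^ 2 - 2 * b + 1 ∨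
  n ∣ 4 * b ^ 4 + 4 * b ^ 3 + 2 * b ^ 2 + 2 * b + 1 ∨ n ∣ (2 * b ^ 2 - 1) ^ 2 ∨
  n ∣ (2 * b ^ 2 + 2 * b + 1) * (2 * b ^ 2 - 2 * b + 1) ∨ n ∣ (2 * b ^ 2 + 1) ^ 2 ∨
  n ∣ (2 * b ^ 2 - 2 * b + 1) ^ 2 ∨ n ∣ (2 * b ^ 2 + 2 * b + 1) ^ 2 ∨ n ∣ 4 * b ^ 4 - 2 * b ^ 2 + 1

section Alg

variable {k : Type u} [Field k] [IsAlgClosed k] [CharP k 2]

/-- the exponent of a torus -/
theorem ord_dvd_of {t : ↥(chevF4.group k)} (ht : t ∈ TT chevF4 k) {P : ℤ} (h : ∀ x, cX hp t x ^ P = 1) :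
    ((orderOf t : ℕ) : ℤ) ∣ P := by
  rw [← Int.dvd_natAbs, Int.natCast_dvd_natCast]
  refine orderOf_dvd_of_pow_eq_one (cX_inj hp (pow_mem ht _) (one_mem _) fun i => ?_)
  rw [cX_pow hp ht, cX_one]
  rcases Int.natAbs_eq P with h1 | h1
  · have h2 := h (sr i)
    rw [h1, zpow_natCast] at h2
    exact h2
  · have h2 := h (sr i)
    rw [h1, zpow_neg, zpow_natCast, inv_eq_one] at h2
    exact h2

/-- the statement over the algebraically closed field -/
theorem odd_alg (hk : LocFin k) [Fact (Nat.Prime 2)] (hka : HAlg 2 k) {m : ℕ} {y : ↥(chevF4.group k)}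
    (hy : ste k m y = y) (hn0 : orderOf y ≠ 0) (hn : (orderOf y).Coprime 2) : TFv (2 ^ m) (orderOf y : ℕ) := by
  let cs := CoxeterMatrix.F₄.toCoxeterSystem
  have : Finite CoxeterMatrix.F₄.Group := finite_W hp cs
  obtain ⟨z', hz'⟩ := H944.TorAnyChev.exists_conj_mem_TT hp 2 hka hn0 hn (pow_orderOf_eq_one y)
  obtain ⟨z, hzz⟩ : ∃ z, z' = z⁻¹ := ⟨z'⁻¹, (inv_inv z').symm⟩
  rw [hzz, inv_inv] at hz'
  have hz : z⁻¹ * y * z ∈ TT chevF4 k := hz'
  set t0 := z⁻¹ * y * z with ht0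
  have h1 : ste k m t0 = (ste k m z)⁻¹ * y * ste k m z := by
    rw [ht0, map_mul, map_mul, map_inv, hy]
  have e1 : z⁻¹ * ste k m z * ste k m t0 = t0 * (z⁻¹ * ste k m z) := by
    rw [h1, ht0]; group
  obtain ⟨m', hm', w, g, hg, hgs, hc⟩ := H378.Regular.exists_form' hp cs hk 2 (ste_TT (m := m) hz) hz e1
  have hgt : g * ste k m t0 * g⁻¹ = t0 := by rw [hgs]; group
  obtain ⟨X, hX, hXt⟩ := exists_mat cs hk hg m
  have ho : orderOf t0 = orderOf y := by
    have e : t0 = MulAut.conj z⁻¹ y := by rw [MulAut.conj_apply, inv_inv, ht0]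
    rw [e, MulEquiv.orderOf_eq]
  have hφ := isMC_cX hp hz
  have hXX := hXt t0 hz hgt
  have key : ∀ a b c d : ℤ, (∀ x : Fin 4 → ℤ, lin X (lin X (lin X (lin X x))) =
      a • lin X (lin X (lin X x)) - b • lin X (lin X x) + c • lin X x - d • x) →
      ((orderOf y : ℕ) : ℤ) ∣ 1 - a * (2 ^ m) + b * (2 ^ m) ^ 2 - c * (2 ^ m) ^ 3 + d * (2 ^ m) ^ 4 := by
    intro a b c d h
    rw [← ho]
    refine ord_dvd_of hz fun x => ?_
    have := pow_ann hφ hXX h x
    rw [← this]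
    push_cast
    rfl
  unfold TFv
  generalize (2 : ℤ) ^ m = b at key ⊢
  rcases main_of_chk hX with h6 | ⟨p, hp, h⟩
  · have := key 0 (-2) 0 4 (fun x => by rw [h6.1 x]; simp)
    iterate 10 right
    rwa [show (1 : ℤ) - 0 * b + -2 * b ^ 2 - 0 * b ^ 3 + 4 * b ^ 4 = 4 * b ^ 4 - 2 * b ^ 2 + 1 by ring] at this
  · have hh := key _ _ _ _ h
    simp only [polys, List.mem_cons, List.not_mem_nil, or_false] at hp
    have neg : ∀ {n x y : ℤ}, n ∣ x → x = -y → n ∣ y := fun h e => by rw [e] at h; exact (dvd_neg.1 h)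
    have pos : ∀ {n x y : ℤ}, n ∣ x → x = y → n ∣ y := fun h e => by rw [e] at h; exact h
    rcases hp with rfl | rfl | rfl | rfl | rfl | rfl | rfl | rfl | rfl | rfl
    · left; exact neg hh (by ring)
    · right; left; exact neg hh (by ring)
    · right; right; left; exact neg hh (by ring)
    · right; right; right; left; exact pos hh (by ring)
    · right; right; right; right; left; exact pos hh (by ring)
    · iterate 5 right
      left; exact pos hh (by ring)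
    · iterate 6 right
      left; exact pos hh (by ring)
    · iterate 7 right
      left; exact pos hh (by ring)
    · iterate 8 right
      left; exact pos hh (by ring)
    · iterate 9 right
      left; exact pos hh (by ring)

end Alg

section Fin

variable {K : Type u} [Field K] [Fintype K] {m : ℕ}

open Cfsg.Agent.ChevalleyStructure.TwF4.TwistedFix in
/-- **the odd orders** -/
theorem odd_ord (hK : Fintype.card K = 2 ^ (2 * m + 1)) (x : ↥(Cfsg.Lie.twistedF4 K (2 ^ m)))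
    (hx : (orderOf x).Coprime 2) : TFv (2 ^ m) (orderOf x : ℕ) := by
  have : Fact (Nat.Prime 2) := ⟨Nat.prime_two⟩
  have hc2 : CharP K 2 := F4Fixed.charP_two hK
  obtain ⟨φ, hφ⟩ := exists_rln hK
  obtain ⟨p, e, hpF, hpc, hpk, he, hpe, hk⟩ := H129.TorusUntw.exists_closure hK
  have hp2 : p = 2 := CharP.eq K hpc hc2
  subst hp2
  have hka : HAlg 2 (AlgebraicClosure K) := H343.PG.TwF4Fifteen.hAlg_closure 2 K
  set x1 : ↥(chevF4.group K) := ⟨(x : GL chevF4.Idx K), SuzT.twisted_le K m x.2⟩ with hx1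
  have ho1 : orderOf x1 = orderOf x := by
    rw [← Subgroup.orderOf_coe x1, ← Subgroup.orderOf_coe x]
  have hs1 : ste K m x1 = x1 := SuzT.ste_of_twisted hφ x.2
  set x2 : ↥(chevF4.group (AlgebraicClosure K)) := emb Cfsg.Agent.H493.F4End.hD (algebraMap K (AlgebraicClosure K)) x1
    with hx2
  have ho2 : orderOf x2 = orderOf x := by
    rw [← ho1]
    exact orderOf_injective _ (emb_injective _ _) x1
  have hs2 : ste (AlgebraicClosure K) m x2 = x2 := by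
    rw [hx2, ← emb_ste, hs1]
  rw [← ho2]
  have hfin : 0 < orderOf x := orderOf_pos x
  exact odd_alg hk hka hs2 (by rw [ho2]; exact hfin.ne') (by rw [ho2]; exact hx)

end Fin

end Cfsg.Agent.R2.Spec.EE
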